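import Cfsg.Agent.PrimClass.FixedAvg
import Mathlib.GroupTheory.Solvable

/-!
A solvable group acting irreducibly and nontrivially on a finite abelian `p`-group fixes, on
geometric average, at most the square root of the group.
-/

set_option autoImplicit false
set_option linter.style.haveILetI false

noncomputable section

namespace Cfsg.Agent.PrimClass

open Subgroup
open scoped Classical

universe u v

/-- The simultaneous fixed subgroup of a set of acting elements. -/
def fixSet {V : Type v} [CommGroup V] {K : Type u} [Group K] (φ : K →* MulAut V) (M : Subgroup K) :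
    Subgroup V where
  carrier := {x | ∀ m ∈ M, φ m x = x}
  one_mem' := fun m _ => map_one (φ m)
  mul_mem' := fun {a b} ha hb m hm => by rw [map_mul, ha m hm, hb m hm]
  inv_mem' := fun {a} ha m hm => by rw [map_inv, ha m hm]

theorem mem_fixSet {V : Type v} [CommGroup V] {K : Type u} [Group K] {φ : K →* MulAut V}
    {M : Subgroup K} {x : V} : x ∈ fixSet φ M ↔ ∀ m ∈ M, φ m x = x := Iff.rfl

theorem fixSet_invariant {V : Type v} [CommGroup V] {K : Type u} [Group K] (φ : K →* MulAut V)
    (M : Subgroup K) [M.Normal] (k : K) {x : V} (hx : x ∈ fixSet φ M) : φ k x ∈ fixSet φ M := by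
  intro m hm
  have h := hx _ ((inferInstance : M.Normal).conj_mem m hm k⁻¹)
  rw [inv_inv] at h
  calc φ m (φ k x) = φ (k * (k⁻¹ * m * k)) x := by
        rw [← MulAut.mul_apply, ← map_mul]; congr 2; group
    _ = φ k x := by rw [map_mul, MulAut.mul_apply, h]

/-- The coset bound: an abelian normal subgroup of coprime order without fixed points makes the
elements of every coset fix, on average, at most the square root. -/
theorem coset_prod_sq_le :
    ∀ (n : ℕ) (V : Type v) [CommGroup V] [Finite V], Nat.card V = n →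
    ∀ (K : Type u) [Group K] [Finite K] (φ : K →* MulAut V) (A : Subgroup K) [A.Normal] [Fintype A]
      (k : K), (∀ a ∈ A, ∀ b ∈ A, a * b = b * a) → zpowers k ⊔ A = ⊤ →
      (Nat.card V).Coprime (Nat.card A) → fixSet φ A = ⊥ →
      (∏ a : A, Nat.card (fixSub (φ (k * a)))) ^ 2 ≤ Nat.card V ^ Nat.card A := by
  intro n
  induction n using Nat.strong_induction_on with
  | _ n ih =>
  intro V _ _ hn K _ _ φ A _ _ k hA hgen hcop hfp
  by_cases hex : ∃ M : Subgroup K, M.Normal ∧ M ≤ A ∧ fixSet φ M ≠ ⊥ ∧ fixSet φ M ≠ ⊤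
  · obtain ⟨M, hMn, hMA, hne, hnt⟩ := hex
    haveI := hMn
    letI := Fintype.ofFinite M
    set U := fixSet φ M with hU
    let T : V →* V :=
      { toFun := fun x => ∏ m : M, φ m x
        map_one' := by simp
        map_mul' := fun a b => by simp [Finset.prod_mul_distrib] }
    set W := T.ker with hW
    have hcM : (Nat.card V).Coprime (Nat.card M) := hcop.coprime_dvd_right (card_dvd_of_le hMA)
    have hTU : ∀ x : V, T x ∈ U := by
      intro x m hm
      show φ m (∏ y : M, φ y x) = ∏ y : M, φ y x
      rw [map_prod]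
      exact Fintype.prod_equiv (Equiv.mulLeft (⟨m, hm⟩ : M)) _ _ fun y => by
        rw [← MulAut.mul_apply, ← map_mul]; rfl
    have hTfix : ∀ x ∈ U, T x = x ^ Nat.card M := fun x hx => by
      show ∏ m : M, φ m x = x ^ Nat.card M
      rw [Finset.prod_congr rfl (fun (m : M) _ => hx m m.2), Finset.prod_const, Finset.card_univ,
        Nat.card_eq_fintype_card]
    have hdis : Disjoint U W := by
      rw [Subgroup.disjoint_def]
      intro x hx hx'
      have := pow_gcd_eq_one.2 ⟨(pow_card_eq_one' : x ^ Nat.card V = 1), (hTfix x hx).symm.trans hx'⟩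
      rwa [hcM.gcd_eq_one, pow_one] at this
    have hsup : U ⊔ W = ⊤ := by
      rw [eq_top_iff]
      intro x _
      obtain ⟨y, hy⟩ : ∃ y : U, y ^ Nat.card M = ⟨T x, hTU x⟩ :=
        (powCoprime (hcM.coprime_dvd_left (card_subgroup_dvd_card _))).surjective ⟨T x, hTU x⟩
      have hy' : (y : V) ^ Nat.card M = T x := congrArg Subtype.val hy
      rw [← mul_inv_cancel_left (y : V) x]
      refine mul_mem_sup y.2 ?_
      rw [hW, MonoidHom.mem_ker, map_mul, map_inv, hTfix _ y.2, hy', inv_mul_cancel]
    have hUi : ∀ g : K, ∀ x ∈ U, φ g x ∈ U := fun g x hx => fixSet_invariant φ M g hx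
    have hWi : ∀ g : K, ∀ x ∈ W, φ g x ∈ W := by
      intro g x hx
      have h1 : T (φ g x) = φ g (T x) := by
        show ∏ m : M, φ m (φ g x) = φ g (∏ m : M, φ m x)
        rw [map_prod]
        refine Fintype.prod_equiv
          (MulAut.conjNormal g⁻¹ : MulAut M).toEquiv _ _ fun m => ?_
        show φ m (φ g x) = φ g (φ ((MulAut.conjNormal g⁻¹ m : M) : K) x)
        rw [← MulAut.mul_apply, ← map_mul, ← MulAut.mul_apply, ← map_mul]
        congr 2
        simp [mul_assoc]
      rw [hW, MonoidHom.mem_ker] at hx ⊢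
      rw [h1, hx, map_one]
    have hcardV : Nat.card U * Nat.card W = Nat.card V := by
      rw [← Nat.card_prod]
      refine Nat.card_congr (Equiv.ofBijective (fun p : U × W => (p.1 : V) * p.2)
        ⟨mul_injective_of_disjoint hdis, fun x => ?_⟩)
      obtain ⟨a, ha, b, hb, rfl⟩ := Subgroup.mem_sup.1 (hsup ▸ Subgroup.mem_top x)
      exact ⟨(⟨a, ha⟩, ⟨b, hb⟩), rfl⟩
    have hUlt : Nat.card U < n := by
      rw [← hn]
      refine lt_of_le_of_ne (Nat.le_of_dvd Nat.card_pos (card_subgroup_dvd_card _)) fun h => hnt ?_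
      exact Subgroup.eq_top_of_card_eq _ h
    have hWlt : Nat.card W < n := by
      rw [← hn, ← hcardV]
      exact lt_mul_of_one_lt_left Nat.card_pos ((Subgroup.one_lt_card_iff_ne_bot _).2 hne)
    have hfpU : fixSet (resAct φ U hUi) A = ⊥ := by
      rw [eq_bot_iff]
      intro x hx
      refine Subgroup.mem_bot.2 (Subtype.ext (Subgroup.mem_bot.1 (hfp ▸ ?_ : (x : V) ∈ (⊥ : Subgroup V))))
      exact fun a ha => congrArg Subtype.val (hx a ha)
    have hfpW : fixSet (resAct φ W hWi) A = ⊥ := by
      rw [eq_bot_iff]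
      intro x hx
      refine Subgroup.mem_bot.2 (Subtype.ext (Subgroup.mem_bot.1 (hfp ▸ ?_ : (x : V) ∈ (⊥ : Subgroup V))))
      exact fun a ha => congrArg Subtype.val (hx a ha)
    have h1 := ih _ hUlt U rfl K (resAct φ U hUi) A k hA hgen
      (hcop.coprime_dvd_left (card_subgroup_dvd_card U)) hfpU
    have h2 := ih _ hWlt W rfl K (resAct φ W hWi) A k hA hgen
      (hcop.coprime_dvd_left (card_subgroup_dvd_card W)) hfpW
    have hsplit : ∀ g : K, Nat.card (fixSub (φ g)) ≤
        Nat.card (fixSub (resAct φ U hUi g)) * Nat.card (fixSub (resAct φ W hWi g)) := by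
      intro g
      rw [← Nat.card_prod]
      refine Nat.card_le_card_of_surjective
        (fun p : fixSub (resAct φ U hUi g) × fixSub (resAct φ W hWi g) =>
          (⟨((p.1 : U) : V) * ((p.2 : W) : V), by
            rw [mem_fixSub, map_mul, ← resAct_apply φ U hUi, ← resAct_apply φ W hWi, p.1.2, p.2.2]⟩ :
              fixSub (φ g))) ?_
      rintro ⟨x, hx⟩
      obtain ⟨a, ha, b, hb, rfl⟩ := Subgroup.mem_sup.1 (hsup ▸ Subgroup.mem_top x)
      rw [mem_fixSub, map_mul] at hx
      have e : (φ g a)⁻¹ * a = φ g b * b⁻¹ := by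
        rw [inv_mul_eq_iff_eq_mul, ← mul_assoc, hx, mul_inv_cancel_right]
      have h1 : (φ g a)⁻¹ * a = 1 := Subgroup.disjoint_def.1 hdis
        (mul_mem (inv_mem (hUi g a ha)) ha) (e ▸ mul_mem (hWi g b hb) (inv_mem hb))
      have ha' : φ g a = a := inv_mul_eq_one.1 h1
      have hb' : φ g b = b := by
        rw [h1] at e
        exact mul_inv_eq_one.1 e.symm
      exact ⟨(⟨⟨a, ha⟩, Subtype.ext ha'⟩, ⟨⟨b, hb⟩, Subtype.ext hb'⟩), rfl⟩
    calc (∏ a : A, Nat.card (fixSub (φ (k * a)))) ^ 2
        ≤ (∏ a : A, Nat.card (fixSub (resAct φ U hUi (k * a))) *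
            Nat.card (fixSub (resAct φ W hWi (k * a)))) ^ 2 :=
          Nat.pow_le_pow_left (Finset.prod_le_prod' fun a _ => hsplit _) 2
      _ = (∏ a : A, Nat.card (fixSub (resAct φ U hUi (k * a)))) ^ 2 *
            (∏ a : A, Nat.card (fixSub (resAct φ W hWi (k * a)))) ^ 2 := by
          rw [Finset.prod_mul_distrib, mul_pow]
      _ ≤ Nat.card U ^ Nat.card A * Nat.card W ^ Nat.card A := Nat.mul_le_mul h1 h2
      _ = Nat.card V ^ Nat.card A := by rw [← mul_pow, hcardV]
  push Not at hex
  by_cases hV : Nat.card V = 1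
  · haveI : Subsingleton V := (Nat.card_eq_one_iff_unique.1 hV).1
    simp [hV]
  obtain ⟨u, hu⟩ : ∃ u : A, φ (u : K) ≠ 1 := by
    by_contra h
    push Not at h
    apply hV
    have htop : fixSet φ A = ⊤ := eq_top_iff.2 fun x _ a ha => by
      rw [h ⟨a, ha⟩]; rfl
    rw [hfp] at htop
    rw [← Subgroup.card_top (G := V), ← htop, Subgroup.card_bot]
  -- the fixed spaces of `k a` and `k a u` meet trivially
  have hpair : ∀ a : A, Nat.card (fixSub (φ (k * a))) * Nat.card (fixSub (φ (k * a * u))) ≤
      Nat.card V := by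
    intro a
    rw [← Nat.card_prod]
    refine Nat.card_le_card_of_injective
      (fun p : fixSub (φ (k * a)) × fixSub (φ (k * a * u)) => (p.1 : V) * p.2) ?_
    refine mul_injective_of_disjoint (Subgroup.disjoint_def.2 ?_)
    intro x hx1 hx2
    rw [mem_fixSub] at hx1 hx2
    let S : Subgroup K :=
      { carrier := {g | g ∈ A ∧ φ g x = x}
        one_mem' := ⟨one_mem A, by rw [map_one, MulAut.one_apply]⟩
        mul_mem' := fun {g h} hg hh => ⟨mul_mem hg.1 hh.1, by
          rw [map_mul, MulAut.mul_apply, hh.2, hg.2]⟩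
        inv_mem' := fun {g} hg => ⟨inv_mem hg.1, by
          conv_lhs => rw [← hg.2]
          rw [← MulAut.mul_apply, ← map_mul, inv_mul_cancel, map_one, MulAut.one_apply]⟩ }
    have huS : (u : K) ∈ S := by
      refine ⟨u.2, ?_⟩
      have h := hx2
      rw [map_mul, MulAut.mul_apply] at h
      exact (φ (k * a)).injective (h.trans hx1.symm)
    have hSA : S ≤ A := fun g hg => hg.1
    haveI hSn : S.Normal := by
      rw [← Subgroup.normalizer_eq_top_iff, eq_top_iff, ← hgen, sup_le_iff]
      constructor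
      · rw [zpowers_le]
        refine Subgroup.mem_normalizer_iff.2 fun g => ?_
        have hfix' : φ ((k * a)⁻¹) x = x := by
          conv_lhs => rw [← hx1]
          rw [← MulAut.mul_apply, ← map_mul, inv_mul_cancel, map_one, MulAut.one_apply]
        constructor
        · rintro ⟨hgA, hgx⟩
          have hkg : k * g * k⁻¹ ∈ A := (inferInstance : A.Normal).conj_mem g hgA k
          refine ⟨hkg, ?_⟩
          have e : k * g * k⁻¹ = k * a * g * (k * a)⁻¹ := by
            rw [show k * a * g * (k * a)⁻¹ = k * ((a : K) * g * (a : K)⁻¹) * k⁻¹ by group,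
              hA a a.2 g hgA, mul_inv_cancel_right]
          rw [e, map_mul, map_mul, MulAut.mul_apply, MulAut.mul_apply, hfix', hgx, hx1]
        · rintro ⟨hgA, hgx⟩
          have hg' : g ∈ A := by
            have := (inferInstance : A.Normal).conj_mem _ hgA k⁻¹
            rwa [inv_inv, show k⁻¹ * (k * g * k⁻¹) * k = g by group] at this
          refine ⟨hg', ?_⟩
          have e : g = (k * a)⁻¹ * (k * g * k⁻¹) * (k * a) := by
            rw [show (k * a)⁻¹ * (k * g * k⁻¹) * (k * a) = (a : K)⁻¹ * (g * (a : K)) by group,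
              ← hA a a.2 g hg', inv_mul_cancel_left]
          rw [e, map_mul, map_mul, MulAut.mul_apply, MulAut.mul_apply, hx1, hgx, hfix']
      · intro b hb
        refine Subgroup.mem_normalizer_iff.2 fun g => ⟨fun hg => ?_, fun hg => ?_⟩
        · rw [hA b hb g hg.1, mul_inv_cancel_right]
          exact hg
        · have h1 : g ∈ A := by
            have := mul_mem (mul_mem (inv_mem hb) hg.1) hb
            rwa [show b⁻¹ * (b * g * b⁻¹) * b = g by group] at this
          rwa [hA b hb g h1, mul_inv_cancel_right] at hg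
    by_contra hx0
    have h1 : fixSet φ S ≠ ⊥ := fun h => hx0 (Subgroup.mem_bot.1 (h ▸ fun g hg => hg.2))
    have h2 := hex S hSn hSA h1
    apply hu
    ext y
    exact (show y ∈ fixSet φ S from h2 ▸ Subgroup.mem_top y) u huS
  calc (∏ a : A, Nat.card (fixSub (φ (k * a)))) ^ 2
      = ∏ a : A, Nat.card (fixSub (φ (k * a))) * Nat.card (fixSub (φ (k * a * u))) := by
        rw [Finset.prod_mul_distrib, pow_two]
        congr 1
        exact Fintype.prod_equiv (Equiv.mulRight u⁻¹) _ _ fun a => by simp [mul_assoc]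
    _ ≤ ∏ _a : A, Nat.card V := Finset.prod_le_prod' fun a _ => hpair a
    _ = Nat.card V ^ Nat.card A := by
        rw [Finset.prod_const, Finset.card_univ, Nat.card_eq_fintype_card (α := A)]

/-- A solvable group acting irreducibly and nontrivially on an abelian `p`-group. -/
theorem prod_fix_sq_le_of_irreducible {p : ℕ} [hp : Fact p.Prime] {V : Type v} [CommGroup V]
    [Finite V] (hVp : IsPGroup p V) {K : Type u} [Group K] [Fintype K] [Group.IsSolvable K]
    (φ : K →* MulAut V)
    (hirr : ∀ U : Subgroup V, (∀ k, ∀ x ∈ U, φ k x ∈ U) → U = ⊥ ∨ U = ⊤) (hne : φ ≠ 1) :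
    (∏ k : K, Nat.card (fixSub (φ k))) ^ 2 ≤ Nat.card V ^ Nat.card K := by
  set R := φ.range with hR
  haveI : Nontrivial R := by
    rw [Subgroup.nontrivial_iff_ne_bot]
    intro h
    exact hne (MonoidHom.range_eq_bot_iff.1 h)
  haveI : Group.IsSolvable R := Group.isSolvable_of_surjective φ.rangeRestrict_surjective
  letI := Fintype.ofFinite R
  -- a nontrivial abelian normal subgroup of the image
  obtain ⟨A, hAn, hA1, hAc⟩ : ∃ A : Subgroup R, A.Normal ∧ A ≠ ⊥ ∧ ∀ a ∈ A, ∀ b ∈ A, a * b = b * a := by
    obtain ⟨m, hm⟩ := (inferInstance : Group.IsSolvable R).solvable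
    have hex : ∃ j, derivedSeries R j = ⊥ := ⟨m, hm⟩
    have h0 : Nat.find hex ≠ 0 := by
      intro h
      have := Nat.find_spec hex
      rw [h, derivedSeries_zero] at this
      exact top_ne_bot this
    obtain ⟨j, hj⟩ : ∃ j, Nat.find hex = j + 1 := ⟨Nat.find hex - 1, by omega⟩
    refine ⟨derivedSeries R j, inferInstance, Nat.find_min hex (by omega), fun a ha b hb => ?_⟩
    have h1 := Nat.find_spec hex
    rw [hj, derivedSeries_succ, commutator_eq_bot_iff_le_centralizer] at h1
    exact (h1 ha b hb).symm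
  set ι := R.subtype with hι
  have hιinv : ∀ (M : Subgroup R) [M.Normal], fixSet ι M = ⊥ ∨ fixSet ι M = ⊤ := fun M _ =>
    hirr _ fun k x hx => fixSet_invariant ι M ⟨φ k, k, rfl⟩ hx
  have hfix_ne : ∀ (M : Subgroup R) [M.Normal], M ≠ ⊥ → fixSet ι M = ⊥ := fun M _ hM =>
    (hιinv M).resolve_right fun h => hM (by
      rw [eq_bot_iff]
      intro m hm
      refine Subgroup.mem_bot.2 (Subtype.ext (MulEquiv.ext fun x => ?_))
      exact (show x ∈ fixSet ι M from h ▸ Subgroup.mem_top x) m hm)
  -- its order is prime to `p`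
  have hcop : (Nat.card V).Coprime (Nat.card A) := by
    obtain ⟨e, he⟩ := hVp.exists_card_eq
    rw [he]
    refine Nat.Coprime.pow_left e ((Nat.Prime.coprime_iff_not_dvd hp.out).2 fun hdvd => ?_)
    rcases Nat.eq_zero_or_pos e with rfl | hepos
    · rw [pow_zero] at he
      haveI : Subsingleton V := (Nat.card_eq_one_iff_unique.1 he).1
      exact hne (MonoidHom.ext fun k => MulEquiv.ext fun x => Subsingleton.elim _ _)
    obtain ⟨P⟩ := (inferInstance : Nonempty (Sylow p A))
    haveI : (P : Subgroup A).Normal := ⟨fun x hx g => by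
      have : g * x * g⁻¹ = x := by
        have h := congrArg (· * g⁻¹) (Subtype.ext (hAc g g.2 x x.2) : g * x = x * g)
        simpa using h
      rwa [this]⟩
    haveI : (P : Subgroup A).Characteristic := P.characteristic_of_normal inferInstance
    set M := (P : Subgroup A).map A.subtype with hM
    haveI : M.Normal := ConjAct.normal_of_characteristic_of_normal
    have hM1 : M ≠ ⊥ := by
      rw [hM, Ne, (Subgroup.map_eq_bot_iff_of_injective _ A.subtype_injective)]
      exact P.ne_bot_of_dvd_card hdvd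
    letI act : MulAction M V :=
      { smul := fun m x => ((m : R) : MulAut V) x
        one_smul := fun x => rfl
        mul_smul := fun a b x => rfl }
    have hMp : IsPGroup p M := P.2.map _
    obtain ⟨b, hb, hb1⟩ := hMp.exists_fixed_point_of_prime_dvd_card_of_fixed_point V
      (he ▸ dvd_pow_self p hepos.ne') (a := (1 : V)) (fun m => map_one ((m : R) : MulAut V))
    apply hb1
    have hmem : b ∈ fixSet ι M := fun m hm => hb ⟨m, hm⟩
    rw [hfix_ne M hM1] at hmem
    exact (Subgroup.mem_bot.1 hmem).symm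
  haveI := hAn
  letI := Fintype.ofFinite A
  -- each coset
  have hcoset : ∀ r : R, (∏ a : A, Nat.card (fixSub (ι (r * a)))) ^ 2 ≤ Nat.card V ^ Nat.card A := by
    intro r
    set K' := zpowers r ⊔ A with hK'
    haveI : (A.subgroupOf K').Normal := Subgroup.normal_subgroupOf
    letI := Fintype.ofFinite (A.subgroupOf K')
    let e : A.subgroupOf K' ≃* A := Subgroup.subgroupOfEquivOfLe le_sup_right
    let r' : K' := ⟨r, mem_sup_left (mem_zpowers r)⟩
    have hgen : zpowers r' ⊔ A.subgroupOf K' = ⊤ := by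
      have h := Subgroup.subgroupOf_sup (A := zpowers r) (A' := A) (B := K') le_sup_left le_sup_right
      rw [show K'.subgroupOf K' = ⊤ from Subgroup.subgroupOf_self K'] at h
      rw [h]
      congr 1
      ext ⟨y, hy⟩
      rw [Subgroup.mem_subgroupOf]
      constructor
      · rintro ⟨i, hi⟩; exact ⟨i, congrArg Subtype.val hi⟩
      · rintro ⟨i, hi⟩; exact ⟨i, Subtype.ext hi⟩
    have h := coset_prod_sq_le _ V rfl K' (ι.comp K'.subtype) (A.subgroupOf K') r'
      (fun a ha b hb => Subtype.ext (hAc _ ha _ hb)) hgen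
      (by rw [Nat.card_congr e.toEquiv]; exact hcop) (by
        rw [eq_bot_iff]
        intro x hx
        have : x ∈ fixSet ι A := fun a ha => hx ⟨a, mem_sup_right ha⟩ ha
        rwa [hfix_ne A hA1] at this)
    rw [Nat.card_congr e.toEquiv] at h
    refine le_trans (le_of_eq ?_) h
    congr 1
    exact (Fintype.prod_equiv e.toEquiv _ _ fun a => rfl).symm
  have hR2 : (∏ r : R, Nat.card (fixSub (ι r))) ^ 2 ≤ Nat.card V ^ Nat.card R := by
    refine (Nat.pow_le_pow_iff_left (Nat.card_pos (α := A)).ne').1 ?_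
    calc ((∏ r : R, Nat.card (fixSub (ι r))) ^ 2) ^ Nat.card A
        = (∏ a : A, ∏ r : R, Nat.card (fixSub (ι (r * a)))) ^ 2 := by
          rw [← pow_mul, mul_comm, pow_mul]
          congr 1
          rw [Nat.card_eq_fintype_card, ← Finset.card_univ, ← Finset.prod_const]
          exact Finset.prod_congr rfl fun a _ => (Equiv.prod_comp (Equiv.mulRight (a : R))
            fun r => Nat.card (fixSub (ι r))).symm
      _ = ∏ r : R, (∏ a : A, Nat.card (fixSub (ι (r * a)))) ^ 2 := by
          rw [Finset.prod_comm, Finset.prod_pow]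
      _ ≤ ∏ _r : R, Nat.card V ^ Nat.card A := Finset.prod_le_prod' fun r _ => hcoset r
      _ = (Nat.card V ^ Nat.card R) ^ Nat.card A := by
          rw [Finset.prod_const, Finset.card_univ, Nat.card_eq_fintype_card (α := R), ← pow_mul,
            ← pow_mul, mul_comm]
  -- back to the acting group
  set f := φ.rangeRestrict with hf
  set m := Nat.card f.ker with hm
  have hfiber : ∏ k : K, Nat.card (fixSub (φ k)) = (∏ r : R, Nat.card (fixSub (ι r))) ^ m := by
    rw [← Finset.prod_fiberwise Finset.univ f (fun k => Nat.card (fixSub (φ k))), ← Finset.prod_pow]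
    refine Finset.prod_congr rfl fun r _ => ?_
    rw [Finset.prod_congr rfl (fun k hk => by
      rw [Finset.mem_filter] at hk
      rw [← hk.2]
      rfl : ∀ k ∈ Finset.univ.filter (fun k => f k = r),
        Nat.card (fixSub (φ k)) = Nat.card (fixSub (ι r))), Finset.prod_const]
    congr 1
    obtain ⟨k₀, rfl⟩ := φ.rangeRestrict_surjective r
    rw [hm, ← Fintype.card_subtype, ← Nat.card_eq_fintype_card]
    exact Nat.card_congr
      { toFun := fun k => ⟨k₀⁻¹ * k.1, by
          rw [MonoidHom.mem_ker, map_mul, map_inv, inv_mul_eq_one]; exact k.2.symm⟩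
        invFun := fun y => ⟨k₀ * y.1, by
          rw [map_mul, (MonoidHom.mem_ker.1 y.2), mul_one]⟩
        left_inv := fun k => Subtype.ext (mul_inv_cancel_left k₀ k.1)
        right_inv := fun y => Subtype.ext (inv_mul_cancel_left k₀ y.1) }
  have hcardK : Nat.card R * m = Nat.card K := by
    rw [← f.ker.card_mul_index, index_ker, MonoidHom.range_eq_top.2 φ.rangeRestrict_surjective,
      Subgroup.card_top, mul_comm]
  rw [hfiber, ← pow_mul, mul_comm, pow_mul, ← hcardK, pow_mul]
  exact Nat.pow_le_pow_left hR2 m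

end Cfsg.Agent.PrimClass
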