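import Mathlib.GroupTheory.Nilpotent
import Mathlib.GroupTheory.PGroup
import Mathlib.Algebra.BigOperators.Group.Finset.Basic

/-!
An element with few fixed points in a coprime fixed-point-free action of a group with nontrivial
centres on an abelian group: the geometric mean of `|C_V(k)|` is at most `|V| ^ (1/2)`.
-/

set_option autoImplicit false
set_option linter.style.haveILetI false

noncomputable section

namespace Cfsg.Agent.PrimClass

open Subgroup
open scoped Classical

universe u v

/-- The fixed subgroup of an automorphism. -/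
def fixSub {V : Type v} [CommGroup V] (f : MulAut V) : Subgroup V where
  carrier := {x | f x = x}
  one_mem' := map_one f
  mul_mem' := fun {a b} ha hb => by
    show f (a * b) = a * b
    rw [map_mul, show f a = a from ha, show f b = b from hb]
  inv_mem' := fun {a} ha => by
    show f a⁻¹ = a⁻¹
    rw [map_inv, show f a = a from ha]

theorem mem_fixSub {V : Type v} [CommGroup V] {f : MulAut V} {x : V} :
    x ∈ fixSub f ↔ f x = x := Iff.rfl

variable {V : Type v} [CommGroup V]

/-- The restriction of an action to an invariant subgroup. -/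
def resAct {K : Type u} [Group K] (φ : K →* MulAut V) (W : Subgroup V)
    (hW : ∀ k, ∀ w ∈ W, φ k w ∈ W) : K →* MulAut W where
  toFun k :=
    { toFun := fun w => ⟨φ k (w : V), hW k w w.2⟩
      invFun := fun w => ⟨φ k⁻¹ (w : V), hW k⁻¹ w w.2⟩
      left_inv := fun w => Subtype.ext (by
        show φ k⁻¹ (φ k (w : V)) = (w : V)
        rw [← MulAut.mul_apply, ← map_mul, inv_mul_cancel, map_one, MulAut.one_apply])
      right_inv := fun w => Subtype.ext (by
        show φ k (φ k⁻¹ (w : V)) = (w : V)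
        rw [← MulAut.mul_apply, ← map_mul, mul_inv_cancel, map_one, MulAut.one_apply])
      map_mul' := fun a b => Subtype.ext (map_mul (φ k) (a : V) (b : V)) }
  map_one' := MulEquiv.ext fun w => Subtype.ext (by
    show φ 1 (w : V) = (w : V)
    rw [map_one, MulAut.one_apply])
  map_mul' a b := MulEquiv.ext fun w => Subtype.ext (by
    show φ (a * b) (w : V) = φ a (φ b (w : V))
    rw [map_mul, MulAut.mul_apply])

theorem resAct_apply {K : Type u} [Group K] (φ : K →* MulAut V) (W : Subgroup V)
    (hW : ∀ k, ∀ w ∈ W, φ k w ∈ W) (k : K) (w : W) :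
    ((resAct φ W hW k w : W) : V) = φ k (w : V) := rfl

variable [Finite V]

/-- The fixed spaces of `k * n`, for `n` in a central subgroup acting freely, are independent. -/
theorem prod_fix_le {K : Type u} [Group K] (φ : K →* MulAut V) (N : Subgroup K) [Fintype N]
    (hN : N ≤ center K) (hfree : ∀ n ∈ N, n ≠ 1 → ∀ x : V, φ n x = x → x = 1) (k : K) :
    ∏ n : N, Nat.card (fixSub (φ (k * n))) ≤ Nat.card V := by
  rw [← Nat.card_pi]
  let f : (Π n : N, fixSub (φ (k * n))) →* V :=
    { toFun := fun w => ∏ n, (w n : V)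
      map_one' := by simp
      map_mul' := fun a b => by simp [Finset.prod_mul_distrib] }
  refine Nat.card_le_card_of_injective f ((injective_iff_map_eq_one f).2 fun w hw => ?_)
  suffices H : ∀ (S : Finset N) (w : N → V), (∀ n ∈ S, φ (k * n) (w n) = w n) →
      ∏ n ∈ S, w n = 1 → ∀ n ∈ S, w n = 1 by
    exact funext fun n => Subtype.ext
      (H Finset.univ (fun m => (w m : V)) (fun m _ => (w m).2) hw n (Finset.mem_univ n))
  intro S
  induction S using Finset.induction_on with
  | empty => simp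
  | @insert a S ha ih =>
    intro w hfix hprod
    rw [Finset.prod_insert ha] at hprod
    -- apply `k * a` and compare
    have hshift : ∀ n : N, φ (k * a) (w n) = φ ((a : K) * (n : K)⁻¹) (φ (k * n) (w n)) := by
      intro n
      rw [← MulAut.mul_apply, ← map_mul]
      congr 2
      rw [mul_assoc, ← mul_assoc (n : K)⁻¹, (mem_center_iff.1 (hN (inv_mem n.2)) k).symm,
        mul_assoc k, inv_mul_cancel, mul_one, mem_center_iff.1 (hN a.2) k]
    have hS : ∀ n ∈ S, φ ((a : K) * (n : K)⁻¹) (w n) * (w n)⁻¹ = 1 := by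
      refine ih (fun n => φ ((a : K) * (n : K)⁻¹) (w n) * (w n)⁻¹) (fun n hn => ?_) ?_
      · have hc : (a : K) * (n : K)⁻¹ ∈ center K := mul_mem (hN a.2) (hN (inv_mem n.2))
        rw [map_mul, map_inv, hfix n (Finset.mem_insert_of_mem hn), ← MulAut.mul_apply, ← map_mul,
          mem_center_iff.1 hc, map_mul, MulAut.mul_apply, hfix n (Finset.mem_insert_of_mem hn)]
      · have h1 : φ (k * a) (w a * ∏ n ∈ S, w n) = 1 := by rw [hprod, map_one]
        rw [map_mul, map_prod, hfix a (Finset.mem_insert_self a S)] at h1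
        have h2 : ∏ n ∈ S, φ (k * a) (w n) = ∏ n ∈ S, φ ((a : K) * (n : K)⁻¹) (w n) :=
          Finset.prod_congr rfl fun n hn => by
            rw [hshift, hfix n (Finset.mem_insert_of_mem hn)]
        rw [Finset.prod_mul_distrib, Finset.prod_inv_distrib, ← h2, mul_inv_eq_one]
        exact mul_left_cancel (h1.trans hprod.symm)
    have hw' : ∀ n ∈ S, w n = 1 := fun n hn =>
      hfree _ (mul_mem a.2 (inv_mem n.2)) (fun h => ha (by
        have : a = n := Subtype.ext (mul_inv_eq_one.1 h)
        exact this ▸ hn)) _ (mul_inv_eq_one.1 (hS n hn))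
    intro n hn
    rcases Finset.mem_insert.1 hn with rfl | hn
    · rwa [Finset.prod_eq_one hw', mul_one] at hprod
    · exact hw' n hn

/-- The bound on the product of all fixed spaces when a central subgroup of prime order acts
freely. -/
theorem prod_sq_le_of_free {K : Type u} [Group K] [Fintype K] (φ : K →* MulAut V) (N : Subgroup K)
    (hN : N ≤ center K) (hN2 : 2 ≤ Nat.card N)
    (hfree : ∀ n ∈ N, n ≠ 1 → ∀ x : V, φ n x = x → x = 1) :
    (∏ k : K, Nat.card (fixSub (φ k))) ^ 2 ≤ Nat.card V ^ Nat.card K := by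
  letI := Fintype.ofFinite N
  have hpos : 1 ≤ ∏ k : K, Nat.card (fixSub (φ k)) :=
    Finset.one_le_prod' fun k _ => Nat.card_pos
  refine (Nat.pow_le_pow_right hpos hN2).trans ?_
  calc (∏ k : K, Nat.card (fixSub (φ k))) ^ Nat.card N
      = ∏ n : N, ∏ k : K, Nat.card (fixSub (φ (k * n))) := by
        rw [Nat.card_eq_fintype_card, ← Finset.card_univ, ← Finset.prod_const]
        exact Finset.prod_congr rfl fun n _ => (Equiv.prod_comp (Equiv.mulRight (n : K))
          fun k => Nat.card (fixSub (φ k))).symm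
    _ = ∏ k : K, ∏ n : N, Nat.card (fixSub (φ (k * n))) := Finset.prod_comm
    _ ≤ ∏ _k : K, Nat.card V := Finset.prod_le_prod' fun k _ => prod_fix_le φ N hN hfree k
    _ = Nat.card V ^ Nat.card K := by
        rw [Finset.prod_const, Finset.card_univ, Nat.card_eq_fintype_card (α := K)]

/-- A coprime automorphism of prime order decomposes an abelian group. -/
theorem exists_split {u : MulAut V} {r : ℕ} (hr : r.Prime) (hu : u ^ r = 1)
    (hcop : (Nat.card V).Coprime r) :
    ∃ U W : Subgroup V, (∀ x, x ∈ U ↔ u x = x) ∧ Disjoint U W ∧ U ⊔ W = ⊤ ∧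
      (∀ f : MulAut V, Commute f u → (∀ x ∈ U, f x ∈ U) ∧ ∀ x ∈ W, f x ∈ W) ∧
      (u ≠ 1 → Nat.card U < Nat.card V) ∧
      (∀ i : ℕ, ¬ r ∣ i → ∀ x ∈ W, (u ^ i) x = x → x = 1) := by
  let T : V →* V :=
    { toFun := fun x => ∏ i ∈ Finset.range r, (u ^ i) x
      map_one' := by simp
      map_mul' := fun a b => by simp [Finset.prod_mul_distrib] }
  have hu' : ∀ (x : V) (i : ℕ), u x = x → (u ^ i) x = x := by
    intro x i hx
    induction i with
    | zero => simp
    | succ i ih => rw [pow_succ, MulAut.mul_apply, hx, ih]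
  have hT : ∀ x, u (T x) = T x := by
    intro x
    show u (∏ i ∈ Finset.range r, (u ^ i) x) = ∏ i ∈ Finset.range r, (u ^ i) x
    have h1 : u (∏ i ∈ Finset.range r, (u ^ i) x) = ∏ i ∈ Finset.range r, (u ^ (i + 1)) x := by
      rw [map_prod]
      exact Finset.prod_congr rfl fun i _ => by rw [pow_succ', MulAut.mul_apply]
    obtain ⟨s, rfl⟩ : ∃ s, r = s + 1 := ⟨r - 1, by have := hr.pos; omega⟩
    rw [h1, Finset.prod_range_succ, Finset.prod_range_succ', hu, pow_zero]
  have hTfix : ∀ x, u x = x → T x = x ^ r := fun x hx => by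
    show ∏ i ∈ Finset.range r, (u ^ i) x = x ^ r
    rw [Finset.prod_congr rfl fun i _ => hu' x i hx, Finset.prod_const, Finset.card_range]
  have hinj : ∀ x : V, x ^ r = 1 → x = 1 := fun x hx => by
    have := pow_gcd_eq_one.2 ⟨(pow_card_eq_one' : x ^ Nat.card V = 1), hx⟩
    rwa [hcop.gcd_eq_one, pow_one] at this
  refine ⟨fixSub u, T.ker, fun x => Iff.rfl, ?_, ?_, ?_, ?_, ?_⟩
  · rw [Subgroup.disjoint_def]
    exact fun {x} hx hx' => hinj x ((hTfix x hx).symm.trans hx')
  · rw [eq_top_iff]
    intro x _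
    obtain ⟨y, hy⟩ : ∃ y : fixSub u, y ^ r = ⟨T x, hT x⟩ :=
      (powCoprime (hcop.coprime_dvd_left (card_subgroup_dvd_card _))).surjective ⟨T x, hT x⟩
    have hy' : (y : V) ^ r = T x := congrArg Subtype.val hy
    rw [← mul_inv_cancel_left (y : V) x]
    refine mul_mem_sup y.2 ?_
    rw [MonoidHom.mem_ker, map_mul, map_inv, hTfix _ y.2, hy', inv_mul_cancel]
  · intro f hf
    have hc : ∀ (i : ℕ) (x : V), f ((u ^ i) x) = (u ^ i) (f x) := fun i x => by
      rw [← MulAut.mul_apply, (hf.pow_right i).eq, MulAut.mul_apply]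
    refine ⟨fun x hx => ?_, fun x hx => ?_⟩
    · have := hc 1 x
      rw [pow_one, show u x = x from hx] at this
      exact this.symm
    · have h1 : f (T x) = T (f x) := by
        show f (∏ i ∈ Finset.range r, (u ^ i) x) = ∏ i ∈ Finset.range r, (u ^ i) (f x)
        rw [map_prod]
        exact Finset.prod_congr rfl fun i _ => hc i x
      rw [MonoidHom.mem_ker] at hx ⊢
      rw [← h1, hx, map_one]
  · intro hne
    refine lt_of_le_of_ne (Nat.le_of_dvd Nat.card_pos (card_subgroup_dvd_card _)) fun h => hne ?_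
    ext x
    exact (Subgroup.eq_top_of_card_eq _ h ▸ Subgroup.mem_top x : x ∈ fixSub u)
  · intro i hi x hxW hx
    obtain ⟨m, hm⟩ := exists_pow_eq_self_of_coprime
      (((hr.coprime_iff_not_dvd.2 hi).symm).coprime_dvd_right (orderOf_dvd_of_pow_eq_one hu))
    have hmul : ∀ j : ℕ, ((u ^ i) ^ j) x = x := by
      intro j
      induction j with
      | zero => simp
      | succ j ih => rw [pow_succ, MulAut.mul_apply, hx, ih]
    exact hinj x ((hTfix x (by have := hmul m; rwa [hm] at this)).symm.trans hxW)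

/-- A coprime fixed-point-free action of a `q`-group on an abelian group has product of the squares
of fixed spaces at most `|V| ^ |K|`. -/
theorem prod_fix_sq_le {q : ℕ} [hq : Fact q.Prime] :
    ∀ (n : ℕ) (V : Type v) [CommGroup V] [Finite V], Nat.card V = n →
    ∀ (K : Type u) [Group K] [Fintype K] (φ : K →* MulAut V), IsPGroup q K →
      (Nat.card V).Coprime q → (∀ x : V, (∀ k, φ k x = x) → x = 1) →
      (∏ k : K, Nat.card (fixSub (φ k))) ^ 2 ≤ Nat.card V ^ Nat.card K := by
  intro n
  induction n using Nat.strong_induction_on with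
  | _ n ih =>
  intro V _ _ hn K _ _
  induction hm : Nat.card K using Nat.strong_induction_on generalizing K with
  | _ m ihm =>
  intro φ hK hcop hfp
  rcases subsingleton_or_nontrivial K with hs | hnt
  · have hsV : ∀ x : V, x = 1 := fun x => hfp x fun k => by
      rw [Subsingleton.elim k 1, map_one, MulAut.one_apply]
    haveI : Subsingleton V := ⟨fun a b => by rw [hsV a, hsV b]⟩
    simp
  haveI := hK.center_nontrivial
  obtain ⟨e, he⟩ := (hK.to_subgroup (center K)).exists_card_eq
  have hdvd : q ∣ Nat.card (center K) := by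
    rw [he]
    refine dvd_pow_self q fun h0 => ?_
    rw [h0, pow_zero] at he
    exact absurd he (Finite.one_lt_card (α := center K)).ne'
  obtain ⟨z, hz⟩ := exists_prime_orderOf_dvd_card' q hdvd
  set N := zpowers (z : K) with hN
  have hzo : orderOf (z : K) = q := (Subgroup.orderOf_coe z).trans hz
  have hNc : N ≤ center K := zpowers_le.2 z.2
  have hNcard : Nat.card N = q := by rw [hN, Nat.card_zpowers, hzo]
  set u := φ z with hu
  have hu_pow : u ^ q = 1 := by rw [hu, ← map_pow, ← hzo, pow_orderOf_eq_one, map_one]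
  have hcard := N.card_eq_card_quotient_mul_card_subgroup
  haveI : N.Normal := ⟨fun x hx g => by
    rwa [mem_center_iff.1 (hNc hx) g, mul_inv_cancel_right]⟩
  by_cases hu1 : u = 1
  · -- the central subgroup acts trivially: pass to the quotient
    have hker : N ≤ φ.ker := zpowers_le.2 hu1
    set ψ := QuotientGroup.lift N φ hker with hψ
    haveI : Fintype (K ⧸ N) := Fintype.ofFinite _
    have hlt : Nat.card (K ⧸ N) < m := by
      rw [← hm, hcard, hNcard]
      exact lt_mul_of_one_lt_right Nat.card_pos hq.out.one_lt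
    have h1 := ihm _ hlt (K ⧸ N) rfl ψ (hK.to_quotient N) hcop (fun x hx => hfp x fun k => hx k)
    have h2 : ∏ k : K, Nat.card (fixSub (φ k)) =
        (∏ c : K ⧸ N, Nat.card (fixSub (ψ c))) ^ q := by
      have e : ∀ k : K, Nat.card (fixSub (φ k)) = Nat.card (fixSub (ψ (k : K ⧸ N))) := fun k => rfl
      rw [Finset.prod_congr rfl fun k _ => e k,
        Fintype.prod_equiv Subgroup.groupEquivQuotientProdSubgroup
          (fun k : K => Nat.card (fixSub (ψ (k : K ⧸ N))))
          (fun p : (K ⧸ N) × N => Nat.card (fixSub (ψ p.1))) (fun k => rfl),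
        Fintype.prod_prod_type, ← Finset.prod_pow]
      refine Finset.prod_congr rfl fun c _ => ?_
      dsimp only
      rw [Finset.prod_const, Finset.card_univ, ← Nat.card_eq_fintype_card, hNcard]
    rw [h2, ← pow_mul, mul_comm, pow_mul]
    refine (Nat.pow_le_pow_left h1 q).trans (le_of_eq ?_)
    rw [← pow_mul, ← hm, hcard, hNcard]
  obtain ⟨U, W, hU, hdis, hsup, hinv, hlt, hfree⟩ := exists_split hq.out hu_pow hcop
  have hcom : ∀ k, Commute (φ k) u := fun k => by
    rw [hu, Commute, SemiconjBy, ← map_mul, ← map_mul, mem_center_iff.1 z.2 k]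
  have hUi : ∀ k, ∀ x ∈ U, φ k x ∈ U := fun k => (hinv _ (hcom k)).1
  have hWi : ∀ k, ∀ x ∈ W, φ k x ∈ W := fun k => (hinv _ (hcom k)).2
  have h1 := ih _ (hn ▸ hlt hu1) U rfl K (resAct φ U hUi) hK
    (hcop.coprime_dvd_left (card_subgroup_dvd_card U))
    (fun x hx => Subtype.ext (hfp x fun k => congrArg Subtype.val (hx k)))
  have h2 := prod_sq_le_of_free (resAct φ W hWi) N hNc (hNcard.symm ▸ hq.out.two_le) (by
    rintro _ ⟨i, rfl⟩ hne x hx
    obtain ⟨j, hj⟩ : ∃ j : ℕ, (z : K) ^ j = (z : K) ^ i :=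
      mem_powers_iff_mem_zpowers.2 ⟨i, rfl⟩
    refine Subtype.ext (hfree j ?_ x x.2 ?_)
    · rintro ⟨c, rfl⟩
      apply hne
      show (z : K) ^ i = 1
      rw [← hj, pow_mul, ← hzo, pow_orderOf_eq_one, one_pow]
    · have := congrArg Subtype.val hx
      rw [resAct_apply] at this
      rw [hu, ← map_pow, hj]
      exact this)
  have hsplit : ∀ k, Nat.card (fixSub (φ k)) ≤
      Nat.card (fixSub (resAct φ U hUi k)) * Nat.card (fixSub (resAct φ W hWi k)) := by
    intro k
    rw [← Nat.card_prod]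
    refine Nat.card_le_card_of_surjective
      (fun p : fixSub (resAct φ U hUi k) × fixSub (resAct φ W hWi k) =>
        (⟨((p.1 : U) : V) * ((p.2 : W) : V), by
          rw [mem_fixSub, map_mul, ← resAct_apply φ U hUi, ← resAct_apply φ W hWi, p.1.2, p.2.2]⟩ :
            fixSub (φ k))) ?_
    rintro ⟨x, hx⟩
    obtain ⟨a, ha, b, hb, rfl⟩ := Subgroup.mem_sup.1 (hsup ▸ Subgroup.mem_top x)
    rw [mem_fixSub, map_mul] at hx
    have e : (φ k a)⁻¹ * a = φ k b * b⁻¹ := by
      rw [inv_mul_eq_iff_eq_mul, ← mul_assoc, hx, mul_inv_cancel_right]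
    have h1 : (φ k a)⁻¹ * a = 1 := Subgroup.disjoint_def.1 hdis
      (mul_mem (inv_mem (hUi k a ha)) ha) (e ▸ mul_mem (hWi k b hb) (inv_mem hb))
    have ha' : φ k a = a := inv_mul_eq_one.1 h1
    have hb' : φ k b = b := by
      rw [h1] at e
      exact mul_inv_eq_one.1 e.symm
    exact ⟨(⟨⟨a, ha⟩, Subtype.ext ha'⟩, ⟨⟨b, hb⟩, Subtype.ext hb'⟩), rfl⟩
  have hcardV : Nat.card U * Nat.card W = Nat.card V := by
    rw [← Nat.card_prod]
    refine Nat.card_congr (Equiv.ofBijective (fun p : U × W => (p.1 : V) * p.2)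
      ⟨mul_injective_of_disjoint hdis, fun x => ?_⟩)
    obtain ⟨a, ha, b, hb, rfl⟩ := Subgroup.mem_sup.1 (hsup ▸ Subgroup.mem_top x)
    exact ⟨(⟨a, ha⟩, ⟨b, hb⟩), rfl⟩
  calc (∏ k : K, Nat.card (fixSub (φ k))) ^ 2
      ≤ (∏ k : K, Nat.card (fixSub (resAct φ U hUi k)) *
          Nat.card (fixSub (resAct φ W hWi k))) ^ 2 :=
        Nat.pow_le_pow_left (Finset.prod_le_prod' fun k _ => hsplit k) 2
    _ = (∏ k : K, Nat.card (fixSub (resAct φ U hUi k))) ^ 2 *
          (∏ k : K, Nat.card (fixSub (resAct φ W hWi k))) ^ 2 := by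
        rw [Finset.prod_mul_distrib, mul_pow]
    _ ≤ Nat.card U ^ Nat.card K * Nat.card W ^ Nat.card K := Nat.mul_le_mul h1 h2
    _ = Nat.card V ^ m := by rw [← mul_pow, hcardV, hm]

/-- Some element of a coprime fixed-point-free `q`-group fixes at most the square root. -/
theorem exists_fix_sq_le {q : ℕ} [Fact q.Prime] {K : Type u} [Group K] [Finite K]
    (φ : K →* MulAut V) (hK : IsPGroup q K) (hcop : (Nat.card V).Coprime q)
    (hfp : ∀ x : V, (∀ k, φ k x = x) → x = 1) :
    ∃ k : K, Nat.card (fixSub (φ k)) ^ 2 ≤ Nat.card V := by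
  letI := Fintype.ofFinite K
  by_contra h
  push Not at h
  have h1 := prod_fix_sq_le (Nat.card V) V rfl K φ hK hcop hfp
  rw [← Finset.prod_pow] at h1
  have h2 : ∏ _k : K, Nat.card V < ∏ k : K, Nat.card (fixSub (φ k)) ^ 2 :=
    Finset.prod_lt_prod_of_nonempty (fun k _ => Nat.card_pos) (fun k _ => h k) Finset.univ_nonempty
  rw [Finset.prod_const, Finset.card_univ, ← Nat.card_eq_fintype_card] at h2
  omega

end Cfsg.Agent.PrimClass
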