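import Cfsg.Agent.PrimClass.FixedAvg
import Cfsg.Agent.Cores.Fitting
import Cfsg.Agent.PGroup.Basic
import Cfsg.Agent.LocalP.PClosed
import Mathlib.GroupTheory.Sylow

/-!
For a prime `p`: the Fitting `p`-part `P` has class at most two when all abelian normal subgroups
are central, and some element of the other prime moves at least half of `P ⧸ Z(P)`.
-/

set_option autoImplicit false
set_option linter.style.haveILetI false

noncomputable section

namespace Cfsg.Agent.PrimClass

open Cfsg Subgroup
open scoped Classical commutatorElement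

universe u

variable {G : Type u} [Group G] [Finite G]

/-- `[P : C ∩ P]` divides `[G : C]` for normal `P`. -/
theorem relIndex_dvd_index_normal' (C P : Subgroup G) [P.Normal] : C.relIndex P ∣ C.index := by
  exact LocalP.relIndex_dvd_index C P

/-- If abelian normal subgroups are central, normal subgroups `P` satisfy: the derived subgroup
is central in `P` as soon as `P` is nilpotent. -/
theorem commutator_le_center_of_abelian_central
    (hab : ∀ A : Subgroup G, A.Normal → (∀ a ∈ A, ∀ b ∈ A, a * b = b * a) → A ≤ center G)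
    {p : ℕ} [Fact p.Prime] (P : Subgroup G) [P.Normal] (hPp : IsPGroup p P) :
    _root_.commutator P ≤ center P := by
  by_contra hne
  set Z := center P with hZ
  set π := QuotientGroup.mk' Z with hπ
  set D := _root_.commutator P with hD
  set Z2 := (center (P ⧸ Z)).comap π with hZ2
  haveI : Z2.Characteristic := Characteristic.comap_quotient_mk centerCharacteristic
  set A := D ⊓ Z2 with hA
  have hZ2c : ∀ a ∈ Z2, ∀ g : P, ⁅a, g⁆ ∈ Z := by
    intro a ha g
    rw [hZ2, mem_comap, mem_center_iff] at ha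
    rw [← QuotientGroup.eq_one_iff]
    show π ⁅a, g⁆ = 1
    rw [map_commutatorElement, commutatorElement_eq_one_iff_mul_comm]
    exact (ha (π g)).symm
  -- elements of `Z₂` centralise the derived subgroup
  have hZ2D : ∀ a ∈ Z2, ∀ d ∈ D, a * d = d * a := by
    intro a ha
    let f : P →* Z :=
      { toFun := fun g => ⟨⁅a, g⁆, hZ2c a ha g⟩
        map_one' := Subtype.ext (commutatorElement_one_right a)
        map_mul' := fun g h => Subtype.ext (by
          show ⁅a, g * h⁆ = ⁅a, g⁆ * ⁅a, h⁆
          have h1 := mem_center_iff.1 (hZ2c a ha h) g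
          calc ⁅a, g * h⁆ = ⁅a, g⁆ * (g * ⁅a, h⁆ * g⁻¹) := by
                simp only [commutatorElement_def]; group
            _ = ⁅a, g⁆ * ⁅a, h⁆ := by rw [h1, mul_inv_cancel_right]) }
    have hf : D ≤ f.ker := by
      rw [hD, _root_.commutator_def, commutator_le]
      intro g _ h _
      rw [MonoidHom.mem_ker, map_commutatorElement, commutatorElement_eq_one_iff_mul_comm]
      exact Subtype.ext (mem_center_iff.1 (f h).2 (f g : P))
    intro d hd
    exact commutatorElement_eq_one_iff_mul_comm.1 (congrArg Subtype.val (hf hd))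
  have hAc : A.map P.subtype ≤ center G := by
    refine hab _ (Cores.normal_map_subtype_of_characteristic A) ?_
    rintro _ ⟨a, ha, rfl⟩ _ ⟨b, hb, rfl⟩
    exact congrArg Subtype.val (hZ2D a ha.2 b hb.1)
  -- the image of the derived subgroup meets the centre of `P ⧸ Z`
  haveI : (D.map π).Normal := Subgroup.Normal.map inferInstance _ (QuotientGroup.mk'_surjective Z)
  have hDne : D.map π ≠ ⊥ := by
    rw [Ne, Subgroup.map_eq_bot_iff, hπ, QuotientGroup.ker_mk']
    exact hne
  obtain ⟨x, hx, hxc, hx1⟩ : ∃ x, x ∈ D.map π ∧ x ∈ center (P ⧸ Z) ∧ x ≠ 1 := by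
    by_contra hnone
    push Not at hnone
    apply PGroup.inf_center_ne_bot (hPp.to_quotient Z) (D.map π) hDne
    rw [eq_bot_iff]
    exact fun y hy => Subgroup.mem_bot.2 (hnone y hy.1 hy.2)
  obtain ⟨a, haD, rfl⟩ := hx
  apply hx1
  show ((a : P) : P ⧸ Z) = 1
  rw [QuotientGroup.eq_one_iff, hZ, mem_center_iff]
  intro g
  exact Subtype.ext (mem_center_iff.1 (hAc ⟨a, ⟨haD, hxc⟩, rfl⟩) g)

/-- An automorphism acts on the central quotient. -/
def centerQuotAut (P : Type u) [Group P] : MulAut P →* MulAut (P ⧸ center P) where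
  toFun e := QuotientGroup.congr (center P) (center P) e
    (characteristic_iff_map_eq.1 inferInstance e)
  map_one' := MulEquiv.ext fun x => QuotientGroup.induction_on x fun _ => rfl
  map_mul' a b := MulEquiv.ext fun x => QuotientGroup.induction_on x fun _ => rfl

/-- The good element at the prime `p`. -/
theorem exists_moving {p q : ℕ} [hp : Fact p.Prime] [hq : Fact q.Prime] (hpq : p ≠ q)
    (hab : ∀ A : Subgroup G, A.Normal → (∀ a ∈ A, ∀ b ∈ A, a * b = b * a) → A ≤ center G)
    {α β : ℕ} [Group.IsNilpotent (G ⧸ fittingSubgroup G)]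
    (hcard : Nat.card (G ⧸ fittingSubgroup G) ∣ p ^ α * q ^ β) :
    ∃ a : G, a ^ q ^ β ∈ fittingSubgroup G ∧
      ∀ g : G, g ^ p ^ α * (a ^ p ^ α)⁻¹ ∈ fittingSubgroup G →
        ∀ i : ℕ, (p ^ i) ^ 2 * Nat.card (center (pCore p G)) ≤ Nat.card (pCore p G) →
          p ^ i ∣ (centralizer ({g} : Set G)).index := by
  set F := fittingSubgroup G with hF
  set P := pCore p G with hP
  have hPp : IsPGroup p P := Cores.pCore_isPGroup
  haveI : Group.IsNilpotent P := hPp.isNilpotent
  have hclass := commutator_le_center_of_abelian_central hab P hPp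
  letI instV : CommGroup (P ⧸ center P) :=
    { (inferInstance : Group (P ⧸ center P)) with
      mul_comm := fun x y => QuotientGroup.induction_on x fun a => QuotientGroup.induction_on y fun b => by
        rw [← QuotientGroup.mk_mul, ← QuotientGroup.mk_mul, QuotientGroup.eq]
        refine hclass ?_
        have e : (a * b)⁻¹ * (b * a) = ⁅b⁻¹, a⁻¹⁆ := by rw [commutatorElement_def]; group
        rw [e]
        exact commutator_mem_commutator (mem_top _) (mem_top _) }
  set φ : G →* MulAut (P ⧸ center P) := (centerQuotAut P).comp MulAut.conjNormal with hφ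
  have hφ_mk : ∀ (g : G) (u : P), φ g (u : P ⧸ center P) = ((MulAut.conjNormal g u : P) : P ⧸ center P) :=
    fun g u => rfl
  have hFker : F ≤ φ.ker := by
    rw [hF, Cores.fittingSubgroup_eq_iSup_pCore]
    refine iSup_le fun r => fun x hx => ?_
    haveI : Fact (r : ℕ).Prime := ⟨r.2⟩
    rw [MonoidHom.mem_ker]
    refine MulEquiv.ext fun v => QuotientGroup.induction_on v fun u => ?_
    rw [hφ_mk, MulAut.one_apply]
    rcases eq_or_ne (r : ℕ) p with hr | hr
    · rw [hr] at hx
      rw [show MulAut.conjNormal x u = (⟨x, hx⟩ : P) * u * (⟨x, hx⟩ : P)⁻¹ from Subtype.ext (by simp),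
        QuotientGroup.mk_mul, QuotientGroup.mk_mul, QuotientGroup.mk_inv, mul_comm (((⟨x, hx⟩ : P) : P ⧸ center P)),
        mul_inv_cancel_right]
    · have hd : Disjoint (pCore (r : ℕ) G) P :=
        (Cores.pCore_isPGroup (p := (r : ℕ))).disjoint_of_ne (r : ℕ) p hr _ _ hPp
      have hc := commute_of_normal_of_disjoint (pCore (r : ℕ) G) P inferInstance inferInstance hd x u hx u.2
      congr 1
      exact Subtype.ext (by simp [hc.eq])
  set ψ := QuotientGroup.lift F φ hFker with hψ
  haveI hnilR : Group.IsNilpotent φ.range := Group.nilpotent_of_surjective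
    (ψ.codRestrict φ.range (fun x => QuotientGroup.induction_on x fun g => ⟨g, rfl⟩))
    (fun ⟨y, g, hg⟩ => ⟨(g : G ⧸ F), Subtype.ext hg⟩)
  have hRcard : Nat.card φ.range ∣ p ^ α * q ^ β := by
    refine dvd_trans (Subgroup.card_dvd_of_surjective
      (ψ.codRestrict φ.range (fun x => QuotientGroup.induction_on x fun g => ⟨g, rfl⟩))
      (fun ⟨y, g, hg⟩ => ⟨(g : G ⧸ F), Subtype.ext hg⟩)) hcard
  obtain ⟨Q⟩ := (inferInstance : Nonempty (Sylow q φ.range))
  obtain ⟨S⟩ := (inferInstance : Nonempty (Sylow p φ.range))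
  haveI hQn : (Q : Subgroup φ.range).Normal := inferInstance
  obtain ⟨j, hj⟩ := hPp.exists_card_eq
  have hVp : IsPGroup p (P ⧸ center P) := hPp.to_quotient _
  obtain ⟨j', hj'⟩ := hVp.exists_card_eq
  have hcop : (Nat.card (P ⧸ center P)).Coprime q := by
    rw [hj']
    exact Nat.Coprime.pow_left j' ((Nat.coprime_primes hp.out hq.out).2 hpq)
  -- no fixed points
  have hfp : ∀ v : P ⧸ center P,
      (∀ k : (Q : Subgroup φ.range), (k : φ.range).1 v = v) → v = 1 := by
    by_contra hex
    push Not at hex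
    obtain ⟨v₀, hv₀, hv₀1⟩ := hex
    let U : Subgroup (P ⧸ center P) :=
      ⨅ k : (Q : Subgroup φ.range), fixSub ((k : φ.range).1)
    have hmemU : ∀ v, v ∈ U ↔ ∀ k : (Q : Subgroup φ.range), (k : φ.range).1 v = v := fun v => by
      simp only [U, Subgroup.mem_iInf, mem_fixSub]
    have hUinv : ∀ s : φ.range, ∀ v ∈ U, s.1 v ∈ U := by
      intro s v hv
      rw [hmemU] at hv ⊢
      intro k
      have h1 := hv ⟨s⁻¹ * (k : φ.range) * s⁻¹⁻¹, hQn.conj_mem _ k.2 s⁻¹⟩
      simp only [inv_inv, Subgroup.coe_mul, InvMemClass.coe_inv, MulAut.mul_apply] at h1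
      have h2 := congrArg (fun w => s.1 w) h1
      simpa using h2
    letI act : MulAction (S : Subgroup φ.range) U :=
      { smul := fun s v => ⟨(s : φ.range).1 v, hUinv s v v.2⟩
        one_smul := fun v => Subtype.ext rfl
        mul_smul := fun a b v => Subtype.ext rfl }
    have hUne : U ≠ ⊥ := fun h => hv₀1 (mem_bot.1 (h ▸ (hmemU v₀).2 hv₀))
    have hdvd : p ∣ Nat.card U := by
      obtain ⟨e, he⟩ := (hVp.to_subgroup U).exists_card_eq
      rw [he]
      refine dvd_pow_self p fun h0 => hUne ?_
      rw [h0, pow_zero] at he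
      exact Subgroup.card_eq_one.1 he
    obtain ⟨b, hb, hb1⟩ := S.2.exists_fixed_point_of_prime_dvd_card_of_fixed_point U hdvd
      (a := (1 : U)) (fun s => Subtype.ext (map_one (s : φ.range).1))
    -- the stabiliser of `b` is everything
    let T : Subgroup φ.range :=
      { carrier := {s | s.1 (b : P ⧸ center P) = b}
        one_mem' := rfl
        mul_mem' := fun {x y} hx hy => by
          show x.1 (y.1 (b : P ⧸ center P)) = b
          rw [show y.1 (b : P ⧸ center P) = b from hy, show x.1 (b : P ⧸ center P) = b from hx]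
        inv_mem' := fun {x} hx => by
          show x.1⁻¹ (b : P ⧸ center P) = b
          conv_lhs => rw [← show x.1 (b : P ⧸ center P) = b from hx]
          exact x.1.symm_apply_apply _ }
    have hT : T = ⊤ := by
      rw [← index_eq_one]
      by_contra hne
      obtain ⟨r, hr, hrd⟩ := Nat.exists_prime_and_dvd hne
      haveI : Fact r.Prime := ⟨hr⟩
      have hQT : (Q : Subgroup φ.range) ≤ T := fun k hk => (hmemU _).1 b.2 ⟨k, hk⟩
      have hST : (S : Subgroup φ.range) ≤ T := fun k hk => congrArg Subtype.val (hb ⟨k, hk⟩)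
      rcases (Nat.Prime.dvd_mul hr).1 (hrd.trans ((index_dvd_card T).trans hRcard)) with h | h
      · obtain rfl := (Nat.prime_dvd_prime_iff_eq hr hp.out).1 (hr.dvd_of_dvd_pow h)
        exact S.not_dvd_index (hrd.trans (index_dvd_of_le hST))
      · obtain rfl := (Nat.prime_dvd_prime_iff_eq hr hq.out).1 (hr.dvd_of_dvd_pow h)
        exact Q.not_dvd_index (hrd.trans (index_dvd_of_le hQT))
    have hall : ∀ g : G, φ g (b : P ⧸ center P) = b := fun g =>
      (hT ▸ mem_top (⟨φ g, g, rfl⟩ : φ.range) : (⟨φ g, g, rfl⟩ : φ.range) ∈ T)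
    obtain ⟨u, hu⟩ := QuotientGroup.mk_surjective (b : P ⧸ center P)
    -- `⟨u⟩ Z(P)` is abelian and normal
    set ZP := (center P).map P.subtype with hZP
    haveI : ZP.Normal := Cores.normal_map_subtype_of_characteristic _
    have hZPc : ZP ≤ center G := by
      refine hab ZP inferInstance ?_
      rintro _ ⟨x, hx, rfl⟩ _ ⟨y, hy, rfl⟩
      exact congrArg Subtype.val (mem_center_iff.1 hy x)
    set W := ZP ⊔ zpowers (u : G) with hW
    have hconj : ∀ g : G, g * u * g⁻¹ ∈ W := by
      intro g
      have h1 : ((MulAut.conjNormal g u : P) : P ⧸ center P) = (u : P ⧸ center P) := by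
        rw [← hφ_mk, hu, hall]
      have h2 : u⁻¹ * MulAut.conjNormal g u ∈ center P := QuotientGroup.eq.1 h1.symm
      have h3 : g * u * g⁻¹ = (u : G) * ((u⁻¹ * MulAut.conjNormal g u : P) : G) := by
        simp [mul_assoc]
      rw [h3]
      exact mul_mem (mem_sup_right (mem_zpowers _)) (mem_sup_left ⟨_, h2, rfl⟩)
    haveI hWn : W.Normal := ⟨fun x hx g => by
      have hle : W.map (MulAut.conj g).toMonoidHom ≤ W := by
        rw [hW, Subgroup.map_sup, MonoidHom.map_zpowers, sup_le_iff, zpowers_le]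
        refine ⟨?_, hconj g⟩
        rintro _ ⟨z, hz, rfl⟩
        exact mem_sup_left ((inferInstance : ZP.Normal).conj_mem z hz g)
      exact hle ⟨x, hx, rfl⟩⟩
    have hWab : W ≤ centralizer (W : Set G) := by
      refine sup_le (hZPc.trans (center_le_centralizer _)) ?_
      rw [zpowers_le, mem_centralizer_iff]
      have : W ≤ centralizer ({(u : G)} : Set G) := sup_le (hZPc.trans (center_le_centralizer _))
        (zpowers_le.2 (mem_centralizer_singleton_iff.2 rfl))
      exact fun w hw => mem_centralizer_singleton_iff.1 (this hw)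
    have hWc : W ≤ center G := hab W hWn fun x hx y hy => (hWab hy x hx)
    apply hb1
    refine Subtype.ext ?_
    show (1 : P ⧸ center P) = b
    rw [← hu]
    refine ((QuotientGroup.eq_one_iff u).2 (mem_center_iff.2 fun y => Subtype.ext ?_)).symm
    exact mem_center_iff.1 (hWc (mem_sup_right (mem_zpowers _))) (y : G)
  -- few fixed points
  obtain ⟨x, hx⟩ := exists_fix_sq_le (q := q) (φ.range.subtype.comp (Q : Subgroup φ.range).subtype)
    Q.2 hcop hfp
  set xs : MulAut (P ⧸ center P) := φ.range.subtype ((Q : Subgroup φ.range).subtype x) with hxs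
  obtain ⟨g₀, hg₀⟩ := (x : φ.range).2
  refine ⟨g₀ ^ p ^ α, ?_, fun g hg i hi => ?_⟩
  · rw [← pow_mul, ← QuotientGroup.eq_one_iff, QuotientGroup.mk_pow]
    exact orderOf_dvd_iff_pow_eq_one.1 ((_root_.orderOf_dvd_natCard _).trans hcard)
  have hxq : ∃ e, orderOf xs = q ^ e := by
    obtain ⟨e, -, he⟩ := (Nat.dvd_prime_pow hq.out).1
      (show orderOf x ∣ q ^ _ from (Q.2.exists_card_eq).choose_spec ▸ _root_.orderOf_dvd_natCard x)
    refine ⟨e, ?_⟩
    rw [← he, hxs, orderOf_injective _ φ.range.subtype_injective,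
      orderOf_injective _ (Q : Subgroup φ.range).subtype_injective]
  obtain ⟨e, he⟩ := hxq
  obtain ⟨m, hm⟩ := exists_pow_eq_self_of_coprime (x := xs) (n := p ^ α * p ^ α) (by
    rw [he, ← pow_add]
    exact Nat.Coprime.pow _ _ ((Nat.coprime_primes hp.out hq.out).2 hpq))
  have hgx : φ g ^ p ^ α = xs ^ (p ^ α * p ^ α) := by
    have h1 : φ (g ^ p ^ α * ((g₀ ^ p ^ α) ^ p ^ α)⁻¹) = 1 := hFker hg
    rw [map_mul, map_inv, mul_inv_eq_one, map_pow, map_pow, map_pow, ← pow_mul] at h1
    rw [h1, hg₀]
    rfl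
  have hfix : fixSub (φ g) ≤ fixSub xs := by
    intro v hv
    rw [mem_fixSub] at hv ⊢
    have hpow : ∀ (f : MulAut (P ⧸ center P)), f v = v → ∀ n : ℕ, (f ^ n) v = v := by
      intro f hf n
      induction n with
      | zero => rfl
      | succ n ih => rw [pow_succ, MulAut.mul_apply, hf, ih]
    have h1 := hpow _ (hgx ▸ hpow _ hv (p ^ α)) m
    rwa [hm] at h1
  -- count
  set C := centralizer ({g} : Set G) with hC
  set C' := C.subgroupOf P with hC'
  set π := (QuotientGroup.mk' (center P)).comp C'.subtype with hπ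
  have hrange : Nat.card π.range ≤ Nat.card (fixSub xs) := by
    refine Nat.le_of_dvd Nat.card_pos (card_dvd_of_le ?_)
    rintro _ ⟨c, rfl⟩
    refine hfix ?_
    rw [mem_fixSub]
    show φ g ((c : P) : P ⧸ center P) = ((c : P) : P ⧸ center P)
    rw [hφ_mk]
    have hcg : g * ((c : P) : G) = ((c : P) : G) * g :=
      (mem_centralizer_singleton_iff.1 c.2).symm
    congr 1
    exact Subtype.ext (by simp [hcg])
  have hker : Nat.card π.ker ≤ Nat.card (center P) := by
    refine Nat.card_le_card_of_injective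
      (fun k => (⟨((k : C') : P), (QuotientGroup.eq_one_iff _).1 k.2⟩ : center P)) fun a b h => ?_
    exact Subtype.ext (Subtype.ext (congrArg (fun z : center P => (z : P)) h))
  have hC'card : Nat.card C' = Nat.card π.range * Nat.card π.ker := by
    rw [← π.ker.card_mul_index, index_ker, mul_comm]
  have hPcard : Nat.card P = Nat.card (P ⧸ center P) * Nat.card (center P) :=
    card_eq_card_quotient_mul_card_subgroup _
  have hidx : Nat.card C' * C'.index = Nat.card P := C'.card_mul_index
  have hdvd : C'.index ∣ C.index := by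
    haveI : P.Normal := inferInstanceAs (pCore p G).Normal
    show C.relIndex P ∣ C.index
    exact relIndex_dvd_index_normal' C P
  refine Dvd.dvd.trans ?_ hdvd
  obtain ⟨k, -, hk⟩ := (Nat.dvd_prime_pow hp.out).1 (hj ▸ index_dvd_card C')
  rw [hk]
  refine Nat.pow_dvd_pow p ?_
  by_contra hlt
  have hlt' : C'.index < p ^ i := hk ▸ Nat.pow_lt_pow_right hp.out.one_lt (by omega)
  set V := Nat.card (P ⧸ center P)
  set Z := Nat.card (center P) with hZdef
  set f := Nat.card (fixSub xs)
  have hZ : 0 < Z := Nat.card_pos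
  have hV : 0 < V := Nat.card_pos
  have hi' : (p ^ i) ^ 2 ≤ V := Nat.le_of_mul_le_mul_right (hi.trans (le_of_eq hPcard)) hZ
  have h1 : V * Z ≤ f * C'.index * Z := by
    rw [← hPcard, ← hidx, hC'card, mul_right_comm f]
    exact Nat.mul_le_mul_right _ (Nat.mul_le_mul hrange hker)
  have h2 : V ≤ f * C'.index := Nat.le_of_mul_le_mul_right h1 hZ
  have h3 : V * V ≤ V * C'.index ^ 2 := by
    calc V * V ≤ (f * C'.index) * (f * C'.index) := Nat.mul_le_mul h2 h2
      _ = f ^ 2 * C'.index ^ 2 := by ring
      _ ≤ V * C'.index ^ 2 := Nat.mul_le_mul_right _ hx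
  have h4 : V ≤ C'.index ^ 2 := Nat.le_of_mul_le_mul_left h3 hV
  have h5 : C'.index ^ 2 < (p ^ i) ^ 2 := Nat.pow_lt_pow_left hlt' (by norm_num)
  omega

end Cfsg.Agent.PrimClass
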