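import Cfsg.Agent.PrimClass.Structure
import Cfsg.Agent.PrimClass.Local
import Cfsg.Agent.Char.Nilpotent
import Cfsg.Agent.CharInd.Correspondence

/-!
Primitive characters of metanilpotent groups with two prime divisors: the degree divides a class
size.
-/

set_option autoImplicit false
set_option linter.style.haveILetI false

noncomputable section

namespace Cfsg.Agent.PrimClass

open Cfsg
open scoped Classical
open Cfsg.Agent.Char (irr_charDegree_spec)

universe u

/-- The `p`-part of the degree, seen on `O_p(G)`. -/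
theorem prime_pow_bound {G : Type u} [Group G] [Fintype G] {χ : IrrCharacter G} (hprim : IsPrim χ)
    [Group.IsNilpotent (G ⧸ fittingSubgroup G)] {p : ℕ} [hp : Fact p.Prime] {k : ℕ}
    (hk : p ^ k ∣ charDegree (χ : G → ℂ)) :
    (p ^ k) ^ 2 * Nat.card (Subgroup.center (pCore p G)) ≤ Nat.card (pCore p G) := by
  set F := fittingSubgroup G with hF
  set P := pCore p G with hP
  letI := Fintype.ofFinite F
  obtain ⟨θ, hθ, -, hθ1⟩ := exists_constituent_deg_eq hprim F inferInstance
  have hdeg : charDegree θ = charDegree (χ : G → ℂ) := by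
    have h1 := (irr_charDegree_spec hθ).2
    rw [hθ1, CharDeg.one_apply] at h1
    exact_mod_cast h1.symm
  set P' := P.subgroupOf F with hP'
  haveI : P'.Normal := Subgroup.normal_subgroupOf
  letI := Fintype.ofFinite P'
  obtain ⟨α, m, hm, hm'⟩ := Char.exists_irr_constituent
    (CharInd.isCharacter_res P' (Char.isCharacter_of_irr hθ))
    (fun h => Char.irr_one_ne_zero hθ (congrFun h 1))
  have hcon : classInner (fun n : P' => θ n) (α : P' → ℂ) ≠ 0 := by
    rw [hm']; exact_mod_cast hm.ne'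
  obtain ⟨⟨c, hc⟩, hratio⟩ := CharDeep.degree_ratio_dvd_index P' hθ α.2 hcon
    (irr_charDegree_spec hθ).2 (irr_charDegree_spec α.2).2
  have hαpos : 0 < charDegree (α : P' → ℂ) := CharDeg.deg_pos α
  rw [hc, Nat.mul_div_cancel_left _ hαpos] at hratio
  have hcop : c.Coprime p := by
    refine Nat.Coprime.coprime_dvd_left hratio ?_
    show (P.relIndex F).Coprime p
    set Q := F ⊓ pPrimeCore p G with hQ
    have hFle : F ≤ P ⊔ Q := by
      rw [hF, Cores.fittingSubgroup_eq_iSup_pCore]
      refine iSup_le fun r => ?_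
      haveI : Fact (r : ℕ).Prime := ⟨r.2⟩
      rcases eq_or_ne (r : ℕ) p with hr | hr
      · rw [hr]; exact le_sup_left
      · refine le_sup_of_le_right (le_inf Cores.pCore_le_fittingSubgroup
          (Cores.le_pPrimeCore inferInstance ?_))
        obtain ⟨j, hj⟩ := (Cores.pCore_isPGroup (p := (r : ℕ)) (G := G)).exists_card_eq
        rw [hj]
        exact Nat.Coprime.pow_left j ((Nat.coprime_primes r.2 hp.out).2 hr)
    have heq : F = P ⊔ Q := le_antisymm hFle (sup_le Cores.pCore_le_fittingSubgroup inf_le_left)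
    rw [heq, Subgroup.relIndex_sup_left]
    exact Cores.pPrimeCore_coprime.coprime_dvd_left
      ((Subgroup.relIndex_dvd_card P Q).trans (Subgroup.card_dvd_of_le inf_le_right))
  have hkα : p ^ k ∣ charDegree (α : P' → ℂ) := by
    rw [← hdeg, hc] at hk
    exact (Nat.Coprime.pow_left k hcop.symm).dvd_of_dvd_mul_right hk
  have hle := Nat.le_of_dvd hαpos hkα
  have h2 := CharDeg.deg_sq_mul_center_le α
  let e : P' ≃* P := Subgroup.subgroupOfEquivOfLe Cores.pCore_le_fittingSubgroup
  rw [Nat.card_congr e.toEquiv, Nat.card_congr (Subgroup.centerCongr e).toEquiv] at h2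
  exact (Nat.mul_le_mul_right _ (Nat.pow_le_pow_left hle 2)).trans h2

/-- The faithful case. -/
theorem exists_class_dvd_of_faithful {G : Type u} [Group G] [Fintype G] {χ : IrrCharacter G}
    (hprim : IsPrim χ) (hfaith : ∀ g : G, (χ : G → ℂ) g = (χ : G → ℂ) 1 → g = 1)
    [Group.IsNilpotent (G ⧸ fittingSubgroup G)] {p q : ℕ} (hp : p.Prime) (hq : q.Prime)
    (hpq : p ≠ q) (hpr : ∀ r : ℕ, r.Prime → r ∣ Nat.card G → r = p ∨ r = q) :
    ∃ g : G, charDegree (χ : G → ℂ) ∣ (Subgroup.centralizer ({g} : Set G)).index := by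
  haveI : Fact p.Prime := ⟨hp⟩
  haveI : Fact q.Prime := ⟨hq⟩
  set F := fittingSubgroup G with hF
  set n := Nat.card (G ⧸ F) with hn
  have hn0 : n ≠ 0 := Nat.card_pos.ne'
  have hfac : n ∣ p ^ n.factorization p * q ^ n.factorization q := by
    refine (Nat.dvd_iff_prime_pow_dvd_dvd _ _).2 fun r k hr hrk => ?_
    rcases Nat.eq_zero_or_pos k with rfl | hk
    · rw [pow_zero]; exact one_dvd _
    have hrn : r ∣ n := (dvd_pow_self r hk.ne').trans hrk
    have hrG : r ∣ Nat.card G := hrn.trans (Subgroup.card_quotient_dvd_card F)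
    rcases hpr r hr hrG with rfl | rfl
    · exact dvd_mul_of_dvd_left (pow_dvd_pow r ((hr.pow_dvd_iff_le_factorization hn0).1 hrk)) _
    · exact dvd_mul_of_dvd_right (pow_dvd_pow r ((hr.pow_dvd_iff_le_factorization hn0).1 hrk)) _
  set A := n.factorization p
  set B := n.factorization q
  obtain ⟨a, ha, hbound_p⟩ := exists_moving (p := p) (q := q) hpq
    (fun X hX hc => haveI := hX; le_center_of_comm hprim hfaith X hc) (α := A) (β := B) hfac
  obtain ⟨b, hb, hbound_q⟩ := exists_moving (p := q) (q := p) hpq.symm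
    (fun X hX hc => haveI := hX; le_center_of_comm hprim hfaith X hc) (α := B) (β := A)
    (by rw [mul_comm]; exact hfac)
  have hmk : ∀ (x : G) (m : ℕ), x ^ m ∈ F → ((x : G ⧸ F)) ^ m = 1 := fun x m h => by
    rw [← QuotientGroup.mk_pow, QuotientGroup.eq_one_iff]; exact h
  have ha1 := hmk a _ ha
  have hb1 := hmk b _ hb
  have hcomm : Commute (a : G ⧸ F) (b : G ⧸ F) :=
    Char.nilpotent_commute_of_coprime
      ((((Nat.coprime_primes hq hp).2 hpq.symm).pow B A).coprime_dvd_left
        (orderOf_dvd_of_pow_eq_one ha1) |>.coprime_dvd_right (orderOf_dvd_of_pow_eq_one hb1))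
  have hmem : ∀ (x : G) (m : ℕ), ((a * b : G) : G ⧸ F) ^ m = (x : G ⧸ F) ^ m →
      (a * b) ^ m * (x ^ m)⁻¹ ∈ F := by
    intro x m h
    rw [← QuotientGroup.eq_one_iff, QuotientGroup.mk_mul, QuotientGroup.mk_inv, QuotientGroup.mk_pow,
      QuotientGroup.mk_pow, h, mul_inv_cancel]
  refine ⟨a * b, (Nat.dvd_iff_prime_pow_dvd_dvd _ _).2 fun r k hr hrk => ?_⟩
  rcases Nat.eq_zero_or_pos k with rfl | hk
  · rw [pow_zero]; exact one_dvd _
  have hdvd : charDegree (χ : G → ℂ) ∣ Nat.card G := by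
    obtain ⟨d, -, hd, hdd⟩ := Char.irr_degree_dvd_card χ.2
    rw [CharDeg.one_apply, Nat.cast_inj] at hd
    exact hd ▸ hdd
  rcases hpr r hr ((dvd_pow_self r hk.ne').trans (hrk.trans hdvd)) with rfl | rfl
  · exact hbound_p _ (hmem a _ (by rw [QuotientGroup.mk_mul, hcomm.mul_pow, hb1, mul_one]))
      k (prime_pow_bound hprim hrk)
  · exact hbound_q _ (hmem b _ (by rw [QuotientGroup.mk_mul, hcomm.mul_pow, ha1, one_mul]))
      k (prime_pow_bound hprim hrk)

/-- The general case. -/
theorem exists_class_dvd {G : Type u} [Group G] [Fintype G] {χ : IrrCharacter G}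
    (hprim : IsPrim χ) [hnil : Group.IsNilpotent (G ⧸ fittingSubgroup G)] {p q : ℕ} (hp : p.Prime)
    (hq : q.Prime) (hpq : p ≠ q) (hpr : ∀ r : ℕ, r.Prime → r ∣ Nat.card G → r = p ∨ r = q) :
    ∃ g : G, charDegree (χ : G → ℂ) ∣ (Subgroup.centralizer ({g} : Set G)).index := by
  obtain ⟨K, hK, hKmem⟩ := Char.isCharacter_exists_kernel (Char.isCharacter_of_irr χ.2)
  letI := Fintype.ofFinite (G ⧸ K)
  obtain ⟨ψ, hψ, hval⟩ := Char.irr_exists_descend χ.2 K fun n hn => (hKmem n).1 hn
  let χ' : IrrCharacter (G ⧸ K) := ⟨ψ, hψ⟩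
  have hdeg : charDegree (χ' : G ⧸ K → ℂ) = charDegree (χ : G → ℂ) := by
    simp [charDegree, χ', hval 1]
  have hprim' : IsPrim χ' := by
    rintro ⟨H, hH, θ, hθ, hind⟩
    refine hprim ⟨H.comap (QuotientGroup.mk' K), ?_,
      (fun x => θ ⟨QuotientGroup.mk' K (x : G), x.2⟩), ?_, ?_⟩
    · intro h
      exact hH (by
        rw [← Subgroup.map_comap_eq_self_of_surjective (QuotientGroup.mk'_surjective K) H, h,
          Subgroup.map_top_of_surjective _ (QuotientGroup.mk'_surjective K)])
    · exact Char.isCharacter_comp hθ ((QuotientGroup.mk' K).subgroupComap H)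
    · refine Eq.trans (CharInd.indFun_inflate K H θ) ?_
      funext g
      rw [hind]
      exact (hval g).symm
  have hfaith : ∀ x : G ⧸ K, ψ x = ψ 1 → x = 1 := by
    intro x hx
    obtain ⟨g, rfl⟩ := QuotientGroup.mk_surjective x
    rw [QuotientGroup.eq_one_iff, hKmem, hval g, hx, ← QuotientGroup.mk_one, ← hval 1]
  haveI : Group.IsNilpotent ((G ⧸ K) ⧸ fittingSubgroup (G ⧸ K)) := by
    have hle : fittingSubgroup G ≤ (fittingSubgroup (G ⧸ K)).comap (QuotientGroup.mk' K) :=
      Subgroup.map_le_iff_le_comap.1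
        (Cores.map_fittingSubgroup_le_of_surjective _ (QuotientGroup.mk'_surjective K))
    exact Group.nilpotent_of_surjective (QuotientGroup.map _ _ (QuotientGroup.mk' K) hle)
      (QuotientGroup.map_surjective_of_surjective _ _ (QuotientGroup.mk' K)
        ((QuotientGroup.mk_surjective).comp (QuotientGroup.mk'_surjective K)) hle)
  obtain ⟨x, hx⟩ := exists_class_dvd_of_faithful (χ := χ') hprim' hfaith hp hq hpq
    (fun r hr hrd => hpr r hr (hrd.trans (Subgroup.card_quotient_dvd_card K)))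
  obtain ⟨g, rfl⟩ := QuotientGroup.mk_surjective x
  refine ⟨g, hdeg ▸ hx.trans ?_⟩
  refine dvd_trans (Subgroup.index_dvd_of_le ?_)
    (Subgroup.index_map_dvd _ (QuotientGroup.mk'_surjective K))
  rintro _ ⟨c, hc, rfl⟩
  rw [Subgroup.mem_centralizer_singleton_iff]
  have := Subgroup.mem_centralizer_singleton_iff.1 hc
  exact (QuotientGroup.mk_mul K c g).symm.trans ((congrArg _ this).trans (QuotientGroup.mk_mul K g c))

end Cfsg.Agent.PrimClass
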