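import Cfsg.Agent.PrimClass.Structure
import Cfsg.Agent.PrimClass.AvgHalf

/-!
Primitive characters of solvable groups: the `p`-part of the degree is at most the average of the
`p`-parts of the class sizes.
-/

set_option autoImplicit false
set_option linter.style.haveILetI false

noncomputable section

namespace Cfsg.Agent.PrimClass

open Cfsg
open scoped Classical commutatorElement
open Cfsg.Agent.Char (irr_charDegree_spec)

universe u

variable {G : Type u} [Group G] [Fintype G]

/-- For a chief factor `L ⧸ N` seen as a group `V` with the conjugation action: the indices of a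
centraliser in `L` and `N` differ by `|V|` over the image. -/
theorem relIndex_step (N L C : Subgroup G) [N.Normal] (hNL : N ≤ L) :
    ∃ I : Subgroup (L.map (QuotientGroup.mk' N)),
      (∀ v ∈ I, ∃ c ∈ C, c ∈ L ∧ QuotientGroup.mk' N c = (v : G ⧸ N)) ∧
      C.relIndex L * Nat.card I = C.relIndex N * Nat.card (L.map (QuotientGroup.mk' N)) := by
  let f : L →* L.map (QuotientGroup.mk' N) := (QuotientGroup.mk' N).subgroupMap L
  have hfs : Function.Surjective f := (QuotientGroup.mk' N).subgroupMap_surjective L
  set π := f.comp (C.subgroupOf L).subtype with hπ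
  refine ⟨π.range, ?_, ?_⟩
  · rintro _ ⟨c, rfl⟩
    exact ⟨((c : L) : G), c.2, (c : L).2, rfl⟩
  · have hker : Nat.card π.ker = Nat.card (C.subgroupOf N) := by
      refine Nat.card_congr
        { toFun := fun x => ⟨⟨(((x : C.subgroupOf L) : L) : G), (QuotientGroup.eq_one_iff _).1
              (congrArg Subtype.val (MonoidHom.mem_ker.1 x.2))⟩, (x : C.subgroupOf L).2⟩
          invFun := fun y => ⟨⟨⟨((y : N) : G), hNL (y : N).2⟩, y.2⟩, Subtype.ext
              ((QuotientGroup.eq_one_iff _).2 (y : N).2)⟩
          left_inv := fun x => rfl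
          right_inv := fun y => rfl }
    have hL : Nat.card L = Nat.card N * Nat.card (L.map (QuotientGroup.mk' N)) := by
      have hk : Nat.card f.ker = Nat.card N := by
        refine Nat.card_congr
          { toFun := fun x => ⟨((x : L) : G), (QuotientGroup.eq_one_iff _).1
                (congrArg Subtype.val (MonoidHom.mem_ker.1 x.2))⟩
            invFun := fun y => ⟨⟨(y : G), hNL y.2⟩, Subtype.ext ((QuotientGroup.eq_one_iff _).2 y.2)⟩
            left_inv := fun x => rfl
            right_inv := fun y => rfl }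
      rw [← f.ker.card_mul_index, Subgroup.index_ker, MonoidHom.range_eq_top.2 hfs, Subgroup.card_top,
        hk]
    have h1 : Nat.card (C.subgroupOf L) = Nat.card (C.subgroupOf N) * Nat.card π.range := by
      rw [← π.ker.card_mul_index, Subgroup.index_ker, hker]
    have h2 := (C.subgroupOf L).card_mul_index
    have h3 := (C.subgroupOf N).card_mul_index
    change _ * C.relIndex L = _ at h2
    change _ * C.relIndex N = _ at h3
    rw [h1, hL, ← h3] at h2
    refine Nat.eq_of_mul_eq_mul_left (Nat.card_pos (α := C.subgroupOf N)) ?_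
    linarith [h2]

theorem factorization_mono {a b : ℕ} (p : ℕ) (hb : b ≠ 0) (h : a ∣ b) :
    a.factorization p ≤ b.factorization p :=
  (Nat.factorization_le_iff_dvd (fun h0 => hb (zero_dvd_iff.1 (h0 ▸ h))) hb).2 h p

/-- The averaged bound, along a chief series. -/
theorem card_mul_factorization_le [Group.IsSolvable G] {χ : IrrCharacter G} (hprim : IsPrim χ)
    {p : ℕ} [hp : Fact p.Prime] :
    ∀ (i : ℕ) (L : Subgroup G) [L.Normal] [Fintype L], Nat.card L = i →
      ∀ φ : L → ℂ, IsIrrCharacter L φ → classInner (fun n : L => (χ : G → ℂ) n) φ ≠ 0 →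
        Nat.card G * (charDegree φ).factorization p ≤
          ∑ g : G, ((Subgroup.centralizer ({g} : Set G)).relIndex L).factorization p := by
  intro i
  induction i using Nat.strong_induction_on with
  | _ i ih =>
  intro L hLn _ hi ψ hψ hcon
  obtain ⟨ψ', e₀, hψ', -, hres, hinv⟩ := exists_homogeneous hprim L
  obtain rfl : ψ' = ψ := by
    by_contra hne
    apply hcon
    rw [hres, Char.classInner_smul_left, Char.classInner_irr_ne hψ' hψ hne, mul_zero]
  by_cases hbot : L = ⊥
  · have h1 : ψ' 1 = 1 := Char.irr_degree_one_of_comm (fun a b : L => by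
      haveI : Subsingleton L := by rw [hbot]; infer_instance
      exact Subsingleton.elim _ _) hψ
    have hd : charDegree ψ' = 1 := by
      have := (irr_charDegree_spec hψ).2
      rw [h1] at this
      exact_mod_cast this.symm
    rw [hd, Nat.factorization_one]
    simp
  -- a chief factor below `L`
  obtain ⟨N, ⟨hNn, hNlt⟩, hNmax⟩ : ∃ N : Subgroup G, (N.Normal ∧ N < L) ∧
      ∀ M : Subgroup G, M.Normal → M < L → N ≤ M → M = N := by
    letI := Fintype.ofFinite (Subgroup G)
    obtain ⟨N, hN, hmax⟩ := Finset.exists_max_image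
      (Finset.univ.filter fun M : Subgroup G => M.Normal ∧ M < L) (fun M => Nat.card M)
      ⟨⊥, Finset.mem_filter.2 ⟨Finset.mem_univ _, inferInstance, bot_lt_iff_ne_bot.2 hbot⟩⟩
    rw [Finset.mem_filter] at hN
    exact ⟨N, hN.2, fun M h1 h2 h3 => (Subgroup.eq_of_le_of_card_ge h3
      (hmax M (Finset.mem_filter.2 ⟨Finset.mem_univ _, h1, h2⟩))).symm⟩
  haveI := hNn
  letI := Fintype.ofFinite N
  have hNL : N ≤ L := hNlt.le
  have hchief : ∀ M : Subgroup G, M.Normal → N ≤ M → M ≤ L → M = N ∨ M = L := fun M h1 h2 h3 =>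
    h3.lt_or_eq.imp (fun h => hNmax M h1 h h2) id
  set V := L.map (QuotientGroup.mk' N) with hV
  haveI hVn : V.Normal := hLn.map _ (QuotientGroup.mk'_surjective N)
  have hab : ⁅L, L⁆ ≤ N := by
    rcases hchief (⁅L, L⁆ ⊔ N) inferInstance le_sup_right (sup_le (Subgroup.commutator_le_left _ _) hNL)
      with h | h
    · exact h ▸ le_sup_left
    exfalso
    have hperf : ⁅V, V⁆ = V := by
      have h' := congrArg (Subgroup.map (QuotientGroup.mk' N)) h
      rwa [Subgroup.map_sup, QuotientGroup.map_mk'_self, sup_bot_eq, Subgroup.map_commutator] at h'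
    have hle : ∀ j, V ≤ derivedSeries (G ⧸ N) j := by
      intro j
      induction j with
      | zero => simp
      | succ j ihj => rw [derivedSeries_succ, ← hperf]; exact Subgroup.commutator_mono ihj ihj
    obtain ⟨j, hj⟩ := (inferInstance : Group.IsSolvable (G ⧸ N)).solvable
    have hV0 : V ≤ ⊥ := hj ▸ hle j
    rw [le_bot_iff, hV, Subgroup.map_eq_bot_iff, QuotientGroup.ker_mk'] at hV0
    exact not_le_of_gt hNlt hV0
  letI instV : CommGroup V :=
    { (inferInstance : Group V) with
      mul_comm := fun a b => Subtype.ext (by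
        have h1 : ⁅V, V⁆ = ⊥ := by
          rw [hV, ← Subgroup.map_commutator, Subgroup.map_eq_bot_iff, QuotientGroup.ker_mk']
          exact hab
        rw [Subgroup.commutator_eq_bot_iff_le_centralizer] at h1
        exact (h1 a.2 (b : G ⧸ N) b.2).symm) }
  -- the centraliser indices
  have hstep : ∀ g : G, ∃ I : Subgroup V,
      I ≤ fixSub ((MulAut.conjNormal : G ⧸ N →* MulAut V) (g : G ⧸ N)) ∧
      ((Subgroup.centralizer ({g} : Set G)).relIndex L).factorization p + (Nat.card I).factorization p =
        ((Subgroup.centralizer ({g} : Set G)).relIndex N).factorization p +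
          (Nat.card V).factorization p := by
    intro g
    obtain ⟨I, hI, hmul⟩ := relIndex_step N L (Subgroup.centralizer ({g} : Set G)) hNL
    refine ⟨I, fun v hv => ?_, ?_⟩
    · obtain ⟨c, hc, -, hcv⟩ := hI v hv
      rw [mem_fixSub]
      apply Subtype.ext
      rw [MulAut.conjNormal_apply, ← hcv, QuotientGroup.mk'_apply, ← QuotientGroup.mk_inv,
        ← QuotientGroup.mk_mul, ← QuotientGroup.mk_mul,
        ← Subgroup.mem_centralizer_singleton_iff.1 hc, mul_inv_cancel_right]
    · have h := congrArg (fun n : ℕ => n.factorization p) hmul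
      rwa [Nat.factorization_mul
          (show (Subgroup.centralizer ({g} : Set G)).relIndex L ≠ 0 from Subgroup.index_ne_zero_of_finite)
          Nat.card_pos.ne',
        Nat.factorization_mul
          (show (Subgroup.centralizer ({g} : Set G)).relIndex N ≠ 0 from Subgroup.index_ne_zero_of_finite)
          Nat.card_pos.ne',
        Finsupp.add_apply, Finsupp.add_apply] at h
  choose I hIfix hIeq using hstep
  have hmono : ∀ g : G, ((Subgroup.centralizer ({g} : Set G)).relIndex N).factorization p ≤
      ((Subgroup.centralizer ({g} : Set G)).relIndex L).factorization p := fun g => by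
    have := factorization_mono p Nat.card_pos.ne' (Subgroup.card_subgroup_dvd_card (I g))
    have := hIeq g
    omega
  -- the constituent below
  obtain ⟨θ, d, hθ, hd, hresN, -⟩ := exists_homogeneous hprim N
  have hconN : classInner (fun n : N => (χ : G → ℂ) n) θ ≠ 0 := by
    rw [hresN, Char.classInner_smul_left, Char.classInner_irr_self hθ, mul_one]
    exact_mod_cast hd.ne'
  have hNi : Nat.card N < i := hi ▸ lt_of_le_of_ne (Nat.le_of_dvd Nat.card_pos (Subgroup.card_dvd_of_le hNL))
    (fun h => hNlt.ne (Subgroup.eq_of_le_of_card_ge hNL h.ge))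
  have hθbound := ih _ hNi N rfl θ hθ hconN
  have he₀ : (e₀ : ℂ) ≠ 0 := by
    intro h0
    apply hcon
    rw [hres, Char.classInner_smul_left, h0, zero_mul]
  have hψres : ∀ n : N, (χ : G → ℂ) n = (e₀ : ℂ) * ψ' ⟨(n : G), hNL n.2⟩ := fun n =>
    congrFun hres ⟨(n : G), hNL n.2⟩
  -- the degree of `ψ'` is that of `θ` times `e`, where `e ^ 2 = |V|` unless `e = 1`
  obtain ⟨e, he, hdeg⟩ : ∃ e : ℕ, (e = 1 ∨ e ^ 2 = Nat.card V) ∧
      charDegree ψ' = e * charDegree θ := by
    have hcardV : Nat.card V = N.relIndex L := by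
      have h1 := Subgroup.relIndex_comap (f := QuotientGroup.mk' N) (H := (⊥ : Subgroup (G ⧸ N)))
        (K := L)
      rw [MonoidHom.comap_bot, QuotientGroup.ker_mk', Subgroup.relIndex_bot_left] at h1
      exact h1.symm
    rcases CharExt.going_down L N hNL hchief hab ψ' hψ hinv with hirr | ⟨φ₂, e₂, hφ₂, hres₂, he₂⟩ |
      ⟨S, hS, hcard, hsum⟩
    · refine ⟨1, Or.inl rfl, ?_⟩
      have h1 : θ = fun x : N => ψ' ⟨(x : G), hNL x.2⟩ := by
        by_contra hne
        apply hconN
        rw [show (fun n : N => (χ : G → ℂ) n) = (e₀ : ℂ) • (fun x : N => ψ' ⟨(x : G), hNL x.2⟩) from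
          funext hψres, Char.classInner_smul_left, Char.classInner_irr_ne hirr hθ (Ne.symm hne), mul_zero]
      rw [one_mul, h1]
      rfl
    · refine ⟨e₂, Or.inr (he₂.trans hcardV.symm), ?_⟩
      obtain rfl : φ₂ = θ := by
        by_contra hne
        apply hconN
        rw [show (fun n : N => (χ : G → ℂ) n) = (e₀ : ℂ) • (fun x : N => ψ' ⟨(x : G), hNL x.2⟩) from
          funext hψres, hres₂, Char.classInner_smul_left, Char.classInner_smul_left,
          Char.classInner_irr_ne hφ₂ hθ hne, mul_zero, mul_zero]
      have h1 := congrFun hres₂ 1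
      simp only [OneMemClass.coe_one, Pi.smul_apply, smul_eq_mul] at h1
      have h2 : ψ' 1 = (e₂ : ℂ) * φ₂ 1 := h1
      rw [(irr_charDegree_spec hψ).2, (irr_charDegree_spec hθ).2] at h2
      exact_mod_cast h2
    · exfalso
      have hmem : ∀ s ∈ S, s = θ := by
        intro s hs
        by_contra hne
        have h1 : classInner (fun n : N => (χ : G → ℂ) n) s = 0 := by
          rw [hresN, Char.classInner_smul_left, Char.classInner_irr_ne hθ (hS s hs) (Ne.symm hne),
            mul_zero]
        rw [show (fun n : N => (χ : G → ℂ) n) = (e₀ : ℂ) • (fun x : N => ψ' ⟨(x : G), hNL x.2⟩) from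
          funext hψres, hsum, Char.classInner_smul_left, Char.classInner_sum_left,
          Finset.sum_eq_single_of_mem s hs
            (fun b hb hbs => Char.classInner_irr_ne (hS b hb) (hS s hs) hbs),
          Char.classInner_irr_self (hS s hs), mul_one] at h1
        exact he₀ h1
      have h2 : S.card ≤ 1 := Finset.card_le_one.2 fun a ha b hb => (hmem a ha).trans (hmem b hb).symm
      rw [hcard] at h2
      rcases Nat.le_one_iff_eq_zero_or_eq_one.1 h2 with h3 | h3
      · exact (Subgroup.index_ne_zero_of_finite (H := N.subgroupOf L)) h3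
      · exact not_le_of_gt hNlt (Subgroup.relIndex_eq_one.1 h3)
  have hθpos : charDegree θ ≠ 0 := (CharDeg.deg_pos (⟨θ, hθ⟩ : IrrCharacter N)).ne'
  by_cases hep : e.factorization p = 0
  · refine le_trans (le_of_eq ?_) (hθbound.trans (Finset.sum_le_sum fun g _ => hmono g))
    rw [hdeg, Nat.factorization_mul (fun h0 => by
      rcases he with h | h
      · omega
      · rw [h0] at h; exact (Nat.card_pos (α := V)).ne' (by simpa using h.symm)) hθpos, Finsupp.add_apply, hep,
      zero_add]
  -- a ramified chief factor of `p`-power order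
  have hsq : e ^ 2 = Nat.card V := he.resolve_left (fun h => hep (by rw [h, Nat.factorization_one]; rfl))
  have hpdvd : p ∣ Nat.card V := by
    rw [← hsq]
    exact (Nat.dvd_of_factorization_pos hep).trans (dvd_pow_self e two_ne_zero)
  set ν : G →* MulAut V := (MulAut.conjNormal : G ⧸ N →* MulAut V).comp (QuotientGroup.mk' N) with hν
  have hirr : ∀ U : Subgroup V, (∀ k, ∀ x ∈ U, ν k x ∈ U) → U = ⊥ ∨ U = ⊤ := by
    intro U hU
    set M := (U.map V.subtype).comap (QuotientGroup.mk' N) with hM
    haveI : (U.map V.subtype).Normal := ⟨by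
      rintro _ ⟨x, hx, rfl⟩ q
      obtain ⟨k, rfl⟩ := QuotientGroup.mk'_surjective N q
      exact ⟨_, hU k x hx, MulAut.conjNormal_apply _ x⟩⟩
    have hNM : N ≤ M := fun x hx => by
      rw [hM, Subgroup.mem_comap, QuotientGroup.mk'_apply, (QuotientGroup.eq_one_iff x).2 hx]
      exact one_mem _
    have hML : M ≤ L := by
      have h1 : M ≤ V.comap (QuotientGroup.mk' N) := Subgroup.comap_mono (Subgroup.map_subtype_le U)
      rwa [hV, Subgroup.comap_map_eq_self (by rwa [QuotientGroup.ker_mk'])] at h1
    rcases hchief M inferInstance hNM hML with h | h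
    · left
      have h' := congrArg (Subgroup.map (QuotientGroup.mk' N)) h
      rw [hM, Subgroup.map_comap_eq_self_of_surjective (QuotientGroup.mk'_surjective N),
        QuotientGroup.map_mk'_self, Subgroup.map_eq_bot_iff_of_injective _ V.subtype_injective] at h'
      exact h'
    · right
      have h' := congrArg (Subgroup.map (QuotientGroup.mk' N)) h
      rw [hM, Subgroup.map_comap_eq_self_of_surjective (QuotientGroup.mk'_surjective N), ← hV] at h'
      rw [eq_top_iff]
      intro x _
      obtain ⟨y, hy, hyx⟩ := (h'.symm ▸ x.2 : (x : G ⧸ N) ∈ U.map V.subtype)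
      rwa [← Subtype.ext hyx]
  have hVp : IsPGroup p V := by
    obtain ⟨P⟩ := (inferInstance : Nonempty (Sylow p V))
    haveI : (P : Subgroup V).Normal := ⟨fun x hx g => by rwa [mul_comm g, mul_inv_cancel_right]⟩
    haveI : (P : Subgroup V).Characteristic := P.characteristic_of_normal inferInstance
    rcases hirr P (fun k x hx => by
      have h := Subgroup.characteristic_iff_map_eq.1 (inferInstance : (P : Subgroup V).Characteristic) (ν k)
      rw [← h]
      exact ⟨x, hx, rfl⟩) with h | h
    · exact absurd h (P.ne_bot_of_dvd_card hpdvd)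
    · intro x
      obtain ⟨k, hk⟩ := P.2 ⟨x, by rw [h]; exact Subgroup.mem_top x⟩
      exact ⟨k, congrArg Subtype.val hk⟩
  obtain ⟨j, hj⟩ := hVp.exists_card_eq
  have hne : ν ≠ 1 := by
    intro h1
    obtain ⟨x, hx⟩ := exists_prime_orderOf_dvd_card' (G := V) p hpdvd
    have htriv : ∀ k (y : V), ν k y = y := fun k y => by rw [h1]; rfl
    rcases hirr (Subgroup.zpowers x) (fun k y hy => by rw [htriv]; exact hy) with h | h
    · rw [Subgroup.zpowers_eq_bot] at h
      rw [h, orderOf_one] at hx
      exact hp.out.ne_one hx.symm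
    · have h2 : Nat.card V = p := by rw [← hx, ← Nat.card_zpowers, h, Subgroup.card_top]
      exact hp.out.not_isSquare ⟨e, by rw [← h2, ← hsq, pow_two]⟩
  have havg := prod_fix_sq_le_of_irreducible hVp ν hirr hne
  have hsum : 2 * ∑ g : G, (Nat.card (I g)).factorization p ≤ Nat.card G * j := by
    have hI : ∀ g : G, p ^ (Nat.card (I g)).factorization p ≤ Nat.card (fixSub (ν g)) := fun g =>
      (Nat.le_of_dvd Nat.card_pos (Nat.ordProj_dvd _ _)).trans
        (Nat.le_of_dvd Nat.card_pos (Subgroup.card_dvd_of_le (hIfix g)))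
    have h1 := (Nat.pow_le_pow_left (Finset.prod_le_prod' (s := Finset.univ) fun g _ => hI g) 2).trans havg
    rw [Finset.prod_pow_eq_pow_sum, ← pow_mul, hj, ← pow_mul] at h1
    have := (Nat.pow_le_pow_iff_right hp.out.one_lt).1 h1
    linarith
  have hje : 2 * e.factorization p = j := by
    have h := congrArg (fun n : ℕ => n.factorization p) hsq
    simp only [Nat.factorization_pow, Finsupp.smul_apply, smul_eq_mul] at h
    rw [h, hj, Nat.factorization_pow_self hp.out]
  have hIeq' : ∀ g : G, ((Subgroup.centralizer ({g} : Set G)).relIndex L).factorization p +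
      (Nat.card (I g)).factorization p =
      ((Subgroup.centralizer ({g} : Set G)).relIndex N).factorization p + j := fun g => by
    rw [hIeq g, hj, Nat.factorization_pow_self hp.out]
  have htot := Finset.sum_congr (rfl : (Finset.univ : Finset G) = Finset.univ) fun g _ => hIeq' g
  rw [Finset.sum_add_distrib, Finset.sum_add_distrib, Finset.sum_const, Finset.card_univ,
    ← Nat.card_eq_fintype_card, smul_eq_mul] at htot
  have he0 : e ≠ 0 := fun h0 => hep (by rw [h0, Nat.factorization_zero]; rfl)
  rw [hdeg, Nat.factorization_mul he0 hθpos, Finsupp.add_apply, mul_add]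
  have hj2 : 2 * (Nat.card G * e.factorization p) = Nat.card G * j := by rw [← hje]; ring
  omega

/-- Some class has `p`-part at least that of the degree of a primitive character. -/
theorem exists_class_factorization_ge [Group.IsSolvable G] {χ : IrrCharacter G} (hprim : IsPrim χ)
    {p : ℕ} [Fact p.Prime] :
    ∃ g : G, (charDegree (χ : G → ℂ)).factorization p ≤
      ((Subgroup.centralizer ({g} : Set G)).index).factorization p := by
  have hirr : IsIrrCharacter (⊤ : Subgroup G) (fun n : (⊤ : Subgroup G) => (χ : G → ℂ) n) :=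
    Char.isIrrCharacter_comp χ.2 (⊤ : Subgroup G).subtype (fun g => ⟨⟨g, Subgroup.mem_top g⟩, rfl⟩)
  have h := card_mul_factorization_le hprim (p := p) _ (⊤ : Subgroup G) rfl _ hirr
    (by rw [Char.classInner_irr_self hirr]; exact one_ne_zero)
  have hd : charDegree (fun n : (⊤ : Subgroup G) => (χ : G → ℂ) n) = charDegree (χ : G → ℂ) := by
    simp [charDegree]
  rw [hd, Nat.card_eq_fintype_card, ← Finset.card_univ, ← smul_eq_mul, ← Finset.sum_const] at h
  obtain ⟨g, -, hg⟩ := Finset.exists_le_of_sum_le Finset.univ_nonempty h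
  exact ⟨g, by rwa [Subgroup.relIndex_top_right] at hg⟩

end Cfsg.Agent.PrimClass
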