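import Cfsg.Agent.CharDeg.PrimeDegrees
import Cfsg.Agent.CharExt.GoingDown
import Cfsg.Agent.Cores.Fitting

/-!
Primitive characters: homogeneous restrictions, abelian normal subgroups, and descending along a
nilpotent quotient.
-/

set_option autoImplicit false
set_option linter.style.haveILetI false

noncomputable section

namespace Cfsg.Agent.PrimClass

open Cfsg
open scoped Classical

universe u

variable {G : Type u} [Group G] [Fintype G]

/-- A character is primitive if it is not induced from a proper subgroup. -/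
def IsPrim (χ : IrrCharacter G) : Prop :=
  ¬ ∃ (H : Subgroup G), H ≠ ⊤ ∧ ∃ θ : ↥H → ℂ, Cfsg.IsCharacter ↥H θ ∧ Cfsg.indFun H θ = (χ : G → ℂ)

/-- Restrictions of primitive characters to normal subgroups are homogeneous. -/
theorem exists_homogeneous {χ : IrrCharacter G} (hprim : IsPrim χ) (N : Subgroup G) [hN : N.Normal]
    [Fintype N] :
    ∃ (φ : N → ℂ) (e : ℕ), IsIrrCharacter N φ ∧ 0 < e ∧
      (fun n : N => (χ : G → ℂ) n) = (e : ℂ) • φ ∧
      ∀ (g : G) (n : N), φ ⟨g * n * g⁻¹, hN.conj_mem (n : G) n.2 g⟩ = φ n := by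
  obtain ⟨φ, k, hk, hk'⟩ := Char.exists_irr_constituent
    (CharInd.isCharacter_res N (Char.isCharacter_of_irr χ.2))
    (fun h => Char.irr_one_ne_zero χ.2 (congrFun h 1))
  have hcon : classInner (fun n : N => (χ : G → ℂ) n) (φ : N → ℂ) ≠ 0 := by
    rw [hk']; exact_mod_cast hk.ne'
  obtain ⟨T, hT, hNT⟩ := CharDeep.exists_inertia N (φ : N → ℂ) (Char.irr_isClassFunction φ.2)
  letI : Fintype T := Fintype.ofFinite T
  obtain ⟨ψ, hψ, hind, -⟩ := Cfsg.Agent.S0854.result N (φ : N → ℂ) φ.2 T hT hNT (χ : G → ℂ) χ.2 hcon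
  have hTtop : T = ⊤ := by
    by_contra hne
    exact hprim ⟨T, hne, ψ, Char.isCharacter_of_irr hψ, by convert hind⟩
  have hinv : ∀ (g : G) (n : N), (φ : N → ℂ) ⟨g * n * g⁻¹, hN.conj_mem (n : G) n.2 g⟩ = (φ : N → ℂ) n :=
    fun g => (hT g).1 (hTtop ▸ Subgroup.mem_top g)
  obtain ⟨e, he, -, hres, -⟩ := CharExt.clifford_data N χ.2 φ.2 hcon
  have hcc : CharInd.conjClass N (φ : N → ℂ) = {(φ : N → ℂ)} := by
    ext ψ'
    rw [CharInd.mem_conjClass, Finset.mem_singleton]
    constructor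
    · rintro ⟨x, rfl⟩
      funext n
      rw [CharInd.conjChar_apply]
      have h1 := hinv x n
      have h2 := hinv x⁻¹ n
      first
        | exact h1
        | exact h2
        | (refine Eq.trans (congrArg (φ : N → ℂ) (Subtype.ext ?_)) h2
           simp)
        | (refine Eq.trans (congrArg (φ : N → ℂ) (Subtype.ext ?_)) h1
           simp)
    · rintro rfl
      exact ⟨1, (CharInd.conjChar_one N _).symm⟩
  rw [hcc, Finset.sum_singleton] at hres
  exact ⟨φ, e, φ.2, he, hres, hinv⟩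

/-- An abelian normal subgroup is central for a faithful primitive character. -/
theorem le_center_of_comm {χ : IrrCharacter G} (hprim : IsPrim χ)
    (hfaith : ∀ g : G, (χ : G → ℂ) g = (χ : G → ℂ) 1 → g = 1) (A : Subgroup G) [hA : A.Normal]
    (hc : ∀ a ∈ A, ∀ b ∈ A, a * b = b * a) : A ≤ Subgroup.center G := by
  letI := Fintype.ofFinite A
  obtain ⟨φ, e, hφ, -, hres, hinv⟩ := exists_homogeneous hprim A
  obtain ⟨w, hw⟩ := Char.irr_exists_monoidHom_of_comm
    (fun a b : A => Subtype.ext (hc a a.2 b b.2)) hφ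
  intro a ha
  rw [Subgroup.mem_center_iff]
  intro g
  have hmem : g * a * g⁻¹ * a⁻¹ ∈ A := mul_mem (hA.conj_mem a ha g) (inv_mem ha)
  have h1 := hinv g ⟨a, ha⟩
  simp only [hw] at h1
  have h2 : w ⟨g * a * g⁻¹ * a⁻¹, hmem⟩ = 1 := by
    rw [show (⟨g * a * g⁻¹ * a⁻¹, hmem⟩ : A) = ⟨g * a * g⁻¹, hA.conj_mem a ha g⟩ * ⟨a, ha⟩⁻¹ from rfl,
      map_mul, map_inv, Units.ext h1, mul_inv_cancel]
  have h3 : (χ : G → ℂ) (g * a * g⁻¹ * a⁻¹) = (χ : G → ℂ) 1 := by
    have e1 := congrFun hres ⟨_, hmem⟩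
    have e2 := congrFun hres 1
    simp only [Pi.smul_apply, hw, h2, map_one, OneMemClass.coe_one] at e1 e2
    exact e1.trans e2.symm
  have h4 := hfaith _ h3
  rwa [mul_inv_eq_one, mul_inv_eq_iff_eq_mul] at h4

/-- Below a nilpotent quotient the degree does not drop. -/
theorem exists_constituent_deg_eq {χ : IrrCharacter G} (hprim : IsPrim χ) :
    ∀ (N : Subgroup G) [N.Normal] [Fintype N], Group.IsNilpotent (G ⧸ N) →
      ∃ φ : N → ℂ, IsIrrCharacter N φ ∧ classInner (fun n : N => (χ : G → ℂ) n) φ ≠ 0 ∧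
        φ 1 = (χ : G → ℂ) 1 := by
  suffices H : ∀ (i : ℕ) (N : Subgroup G) [N.Normal] [Fintype N], N.index = i →
      Group.IsNilpotent (G ⧸ N) →
      ∀ φ : N → ℂ, IsIrrCharacter N φ → classInner (fun n : N => (χ : G → ℂ) n) φ ≠ 0 →
        φ 1 = (χ : G → ℂ) 1 by
    intro N _ _ hnil
    obtain ⟨φ, e, hφ, he, hres, -⟩ := exists_homogeneous hprim N
    have hcon : classInner (fun n : N => (χ : G → ℂ) n) φ ≠ 0 := by
      rw [hres, Char.classInner_smul_left, Char.classInner_irr_self hφ, mul_one]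
      exact_mod_cast he.ne'
    exact ⟨φ, hφ, hcon, H _ N rfl hnil φ hφ hcon⟩
  intro i
  induction i using Nat.strong_induction_on with
  | _ i ih =>
  intro N _ _ hi hnil φ hφ hcon
  obtain ⟨φ', e, hφ', he, hres, hinvN⟩ := exists_homogeneous hprim N
  have hφeq : φ' = φ := by
    by_contra hne
    apply hcon
    rw [hres, Char.classInner_smul_left, Char.classInner_irr_ne hφ' hφ hne, mul_zero]
  subst hφeq
  by_cases htop : N = ⊤
  · subst htop
    have hirr : IsIrrCharacter (⊤ : Subgroup G) (fun n : (⊤ : Subgroup G) => (χ : G → ℂ) n) :=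
      Char.isIrrCharacter_comp χ.2 (⊤ : Subgroup G).subtype
        (fun g => ⟨⟨g, Subgroup.mem_top g⟩, rfl⟩)
    have h1 : φ' = fun n : (⊤ : Subgroup G) => (χ : G → ℂ) n := by
      by_contra hne
      exact hcon (Char.classInner_irr_ne hirr hφ (Ne.symm hne))
    rw [h1]
    rfl
  haveI : Nontrivial (G ⧸ N) := QuotientGroup.nontrivial_iff.2 htop
  haveI := hnil
  haveI : Nontrivial (Subgroup.center (G ⧸ N)) :=
    (Subgroup.nontrivial_iff_ne_bot _).2 (Group.IsNilpotent.center_ne_bot _)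
  obtain ⟨r, hr, hrd⟩ := Nat.exists_prime_and_dvd
    (Finite.one_lt_card (α := Subgroup.center (G ⧸ N))).ne'
  haveI : Fact r.Prime := ⟨hr⟩
  obtain ⟨z, hz⟩ := exists_prime_orderOf_dvd_card' r hrd
  set Z := Subgroup.zpowers (z : G ⧸ N) with hZ
  have hZc : Z ≤ Subgroup.center (G ⧸ N) := Subgroup.zpowers_le.2 z.2
  haveI : Z.Normal := ⟨fun x hx g => by
    rwa [Subgroup.mem_center_iff.1 (hZc hx) g, mul_inv_cancel_right]⟩
  set M := Z.comap (QuotientGroup.mk' N) with hM
  have hNM : N ≤ M := fun x hx => by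
    rw [hM, Subgroup.mem_comap, QuotientGroup.mk'_apply, (QuotientGroup.eq_one_iff x).2 hx]
    exact one_mem _
  have hrel : N.relIndex M = r := by
    have h1 := Subgroup.relIndex_comap (f := QuotientGroup.mk' N) (H := (⊥ : Subgroup (G ⧸ N)))
      (K := M)
    rw [MonoidHom.comap_bot, QuotientGroup.ker_mk', hM,
      Subgroup.map_comap_eq_self_of_surjective (QuotientGroup.mk'_surjective N),
      Subgroup.relIndex_bot_left, hZ, Nat.card_zpowers, Subgroup.orderOf_coe, hz] at h1
    exact h1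
  have hMi : M.index < i := by
    rw [← hi, ← Subgroup.relIndex_mul_index hNM, hrel]
    exact lt_mul_of_one_lt_left (Nat.pos_of_ne_zero Subgroup.index_ne_zero_of_finite) hr.one_lt
  letI := Fintype.ofFinite M
  have hnilM : Group.IsNilpotent (G ⧸ M) :=
    Group.nilpotent_of_surjective (QuotientGroup.map N M (MonoidHom.id G) hNM)
      (QuotientGroup.map_surjective_of_surjective N M (MonoidHom.id G) (QuotientGroup.mk_surjective) hNM)
  obtain ⟨ψ, d, hψ, hd, hresM, hinvM⟩ := exists_homogeneous hprim M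
  have hconM : classInner (fun n : M => (χ : G → ℂ) n) ψ ≠ 0 := by
    rw [hresM, Char.classInner_smul_left, Char.classInner_irr_self hψ, mul_one]
    exact_mod_cast hd.ne'
  have hψ1 := ih _ hMi M rfl hnilM ψ hψ hconM
  have hψres : (fun n : N => (χ : G → ℂ) n) = (d : ℂ) • (fun x : N => ψ ⟨(x : G), hNM x.2⟩) := by
    funext n
    exact congrFun hresM ⟨(n : G), hNM n.2⟩
  have hd1 : (d : ℂ) = 1 := by
    have h1 := congrFun hresM 1
    simp only [OneMemClass.coe_one, Pi.smul_apply, smul_eq_mul, ← hψ1] at h1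
    exact mul_right_cancel₀ (Char.irr_one_ne_zero hψ) ((one_mul (ψ 1)).trans h1).symm
  rw [hd1, one_smul] at hψres
  have hab : ⁅M, M⁆ ≤ N := by
    rw [← QuotientGroup.ker_mk' N, ← Subgroup.map_eq_bot_iff, Subgroup.map_commutator, hM,
      Subgroup.map_comap_eq_self_of_surjective (QuotientGroup.mk'_surjective N),
      Subgroup.commutator_eq_bot_iff_le_centralizer]
    exact hZc.trans (Subgroup.center_le_centralizer _)
  have hchief : ∀ L : Subgroup G, L.Normal → N ≤ L → L ≤ M → L = N ∨ L = M := by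
    intro L _ h1 h2
    have h3 := Subgroup.relIndex_mul_relIndex N L M h1 h2
    rw [hrel] at h3
    rcases (Nat.dvd_prime hr).1 (Dvd.intro _ h3) with h4 | h4
    · exact Or.inl (le_antisymm (Subgroup.relIndex_eq_one.1 h4) h1)
    · right
      rw [h4] at h3
      exact le_antisymm h2 (Subgroup.relIndex_eq_one.1 (by
        exact (Nat.mul_eq_left hr.ne_zero).1 h3))
  rcases CharExt.going_down M N hNM hchief hab ψ hψ hinvM with hirr | ⟨φ₂, e₂, -, -, he₂⟩ | ⟨S, hS, hcard, hsum⟩
  · have h1 : φ' = fun x : N => ψ ⟨(x : G), hNM x.2⟩ := by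
      by_contra hne
      apply hcon
      rw [hψres, Char.classInner_irr_ne hirr hφ (Ne.symm hne)]
    rw [h1, ← hψ1]
    rfl
  · exfalso
    rw [hrel] at he₂
    exact hr.not_isSquare ⟨e₂, by rw [← he₂, pow_two]⟩
  · exfalso
    have hmem : ∀ s ∈ S, s = φ' := by
      intro s hs
      by_contra hne
      have h1 : classInner (fun n : N => (χ : G → ℂ) n) s = 0 := by
        rw [hres, Char.classInner_smul_left, Char.classInner_irr_ne hφ' (hS s hs) (Ne.symm hne),
          mul_zero]
      rw [hψres, hsum, Char.classInner_sum_left, Finset.sum_eq_single_of_mem s hs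
        (fun b hb hbs => Char.classInner_irr_ne (hS b hb) (hS s hs) hbs),
        Char.classInner_irr_self (hS s hs)] at h1
      exact one_ne_zero h1
    have h2 : S.card ≤ 1 := Finset.card_le_one.2 fun a ha b hb => (hmem a ha).trans (hmem b hb).symm
    rw [hcard, hrel] at h2
    exact absurd h2 (not_le.2 hr.one_lt)

end Cfsg.Agent.PrimClass
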